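import Cfsg.Agent.H9.DG0

set_option autoImplicit false

/-! Package `C3a` for S5732. -/

namespace Cfsg.Agent.H3.DGa
open MulAction Cfsg.Agent.H9.DG

universe u

theorem pw0 {G : Type u} [Group G] (r : ℕ) (k : ℕ) : ∀ d : G, d ^ r ^ k = 1 → d ≠ 1 →
    ∃ j : ℕ, d ^ j ≠ 1 ∧ (d ^ j) ^ r = 1 := by
  induction k with
  | zero => intro d h hd; exact absurd (by simpa using h) hd
  | succ k ih =>
    intro d h hd
    by_cases h1 : d ^ r = 1
    · exact ⟨1, by simpa using hd, by simpa using h1⟩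
    · obtain ⟨j, h2, h3⟩ := ih (d ^ r) (by rw [← pow_mul, ← pow_succ']; exact h) h1
      exact ⟨r * j, by rwa [pow_mul], by rwa [pow_mul]⟩

theorem cen {H : Type u} [Group H] [Finite H] {r : ℕ} (hr : r.Prime) (P A N : Subgroup H) (hP : IsPGroup r P)
    [A.Normal] [N.Normal] (hNP : N ≤ P) (n : H) (hn : n ∈ N) (hnA : n ∉ A) :
    ∃ d ∈ N, d ∉ A ∧ d ^ r ∈ A ∧ ∀ q ∈ P, d * q * d⁻¹ * q⁻¹ ∈ A := by
  haveI : Fact r.Prime := ⟨hr⟩
  let π := QuotientGroup.mk' A
  let P' := P.map π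
  let N' := N.map π
  haveI : N'.Normal := Subgroup.Normal.map inferInstance π (QuotientGroup.mk'_surjective A)
  have hP' : IsPGroup r P' := hP.map π
  have hN' : IsPGroup r N' := (hP.to_le hNP).map π
  letI : MulAction P' N' := MulAction.compHom N' ((MulAut.conjNormal (H := N')).comp P'.subtype)
  have hs : ∀ (q : P') (m : N'), ((q • m : N') : H ⧸ A) = q * m * (q : H ⧸ A)⁻¹ := fun q m => rfl
  haveI : Nontrivial N' := ⟨⟨⟨π n, Subgroup.mem_map_of_mem π hn⟩, 1, fun h => hnA (by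
    have := congrArg Subtype.val h
    exact (QuotientGroup.eq_one_iff n).1 this)⟩⟩
  have hd : r ∣ Nat.card N' := by
    obtain ⟨k, hk0, hk⟩ := hN'.nontrivial_iff_card.1 inferInstance
    rw [hk]; exact dvd_pow_self r hk0.ne'
  obtain ⟨b, hb, hb1⟩ := hP'.exists_fixed_point_of_prime_dvd_card_of_fixed_point N' hd (a := 1)
    (fun q => Subtype.ext (by rw [hs]; simp))
  obtain ⟨k, hk⟩ := hN' b
  obtain ⟨j, h1, h2⟩ := pw0 r k b hk hb1.symm
  obtain ⟨d, hdN, hd⟩ := Subgroup.mem_map.1 (b ^ j).2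
  refine ⟨d, hdN, fun h => h1 (Subtype.ext ?_), ?_, fun q hq => ?_⟩
  · rw [← hd]; exact (QuotientGroup.eq_one_iff d).2 h
  · rw [← QuotientGroup.eq_one_iff]
    change π (d ^ r) = 1
    rw [map_pow, hd]
    exact congrArg Subtype.val h2
  · rw [← QuotientGroup.eq_one_iff]
    change π (d * q * d⁻¹ * q⁻¹) = 1
    have h3 := congrArg Subtype.val (hb ⟨π q, Subgroup.mem_map_of_mem π hq⟩)
    rw [hs] at h3
    have h4 : Commute (π q) (b : H ⧸ A) := mul_inv_eq_iff_eq_mul.1 h3
    have h5 : Commute (π q) (π d) := by rw [hd]; exact h4.pow_right j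
    simp only [map_mul, map_inv]
    rw [← h5.eq]; group

theorem pw1 {G : Type u} [Group G] {u v c : G} (h : v * u = c * (u * v)) (cv : Commute c v) (n : ℕ) :
    v ^ n * u = c ^ n * (u * v ^ n) := by
  induction n with
  | zero => simp
  | succ n ih =>
    rw [pow_succ' v, mul_assoc, ih, ← mul_assoc, ← (cv.pow_left n).eq, mul_assoc, ← mul_assoc v u, h, pow_succ c]
    simp only [mul_assoc]

theorem pw2 {G : Type u} [Group G] {u v c : G} (h : v * u = c * (u * v)) (cu : Commute c u) (cv : Commute c v) (n : ℕ) :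
    (u * v) ^ n = c ^ n.choose 2 * (u ^ n * v ^ n) := by
  induction n with
  | zero => simp
  | succ n ih =>
    have e : (n + 1).choose 2 = n.choose 2 + n := by rw [Nat.choose_succ_succ', Nat.choose_one_right, add_comm]
    rw [pow_succ, ih, e, pow_add, pow_succ u, pow_succ v]
    have := pw1 h cv n
    calc c ^ n.choose 2 * (u ^ n * v ^ n) * (u * v) = c ^ n.choose 2 * (u ^ n * (v ^ n * u) * v) := by
          simp only [mul_assoc]
      _ = c ^ n.choose 2 * ((u ^ n * c ^ n) * (u * v ^ n) * v) := by rw [this]; simp only [mul_assoc]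
      _ = _ := by rw [← (cu.pow_pow n n).eq]; simp only [mul_assoc]

theorem c3a : C3a.{u} := by
  intro H _ _ Q A r x g hr hQn hQ hAQ hAn hcyc hmax hg hgc hgA hx hxA hxr
  haveI : Fact r.Prime := ⟨hr⟩
  have hAc : ∀ a ∈ A, ∀ b ∈ A, a * b = b * a := fun a ha b hb =>
    congrArg Subtype.val ((IsCyclic.commGroup (α := A)).mul_comm ⟨a, ha⟩ ⟨b, hb⟩)
  let C : Subgroup H := Q ⊓ Subgroup.centralizer (A : Set H)
  have mC : ∀ c, c ∈ C ↔ c ∈ Q ∧ ∀ a ∈ A, a * c = c * a := fun c => by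
    simp [C, Subgroup.mem_centralizer_iff]
  haveI hCn : C.Normal := Subgroup.normal_inf_normal _ _
  have hAC : A ≤ C := fun a ha => (mC a).2 ⟨hAQ ha, fun b hb => hAc b hb a ha⟩
  let π := QuotientGroup.mk' A
  have mA : ∀ a, a ∈ A ↔ π a = 1 := fun a => (QuotientGroup.eq_one_iff a).symm
  have mcom : ∀ e q, e * q * e⁻¹ * q⁻¹ ∈ A ↔ Commute (π e) (π q) := by
    intro e q
    rw [mA, map_mul, map_mul, map_mul, map_inv, map_inv, mul_inv_eq_one, mul_inv_eq_iff_eq_mul]
    rfl
  let E : Subgroup H :=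
    { carrier := {e | e ∈ C ∧ π e ^ r = 1 ∧ ∀ q ∈ C, Commute (π e) (π q)}
      one_mem' := ⟨C.one_mem, by simp, fun q _ => by simp⟩
      mul_mem' := by
        rintro a b ⟨a1, a2, a3⟩ ⟨b1, b2, b3⟩
        refine ⟨C.mul_mem a1 b1, ?_, fun q hq => ?_⟩
        · rw [map_mul, (a3 b b1).mul_pow, a2, b2, mul_one]
        · rw [map_mul]; exact (a3 q hq).mul_left (b3 q hq)
      inv_mem' := by
        rintro a ⟨a1, a2, a3⟩
        refine ⟨C.inv_mem a1, by rw [map_inv, inv_pow, a2, inv_one], fun q hq => ?_⟩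
        rw [map_inv]; exact (a3 q hq).inv_left }
  have mE : ∀ e, e ∈ E ↔ e ∈ C ∧ π e ^ r = 1 ∧ ∀ q ∈ C, Commute (π e) (π q) := fun e => Iff.rfl
  haveI hEn : E.Normal := by
    constructor
    rintro e ⟨e1, e2, e3⟩ h
    refine ⟨hCn.conj_mem e e1 h, by simp only [map_mul, map_inv, conj_pow, e2, mul_one, mul_inv_cancel], fun q hq => ?_⟩
    have := (e3 _ (hCn.conj_mem q hq h⁻¹)).conj (π h)
    simpa [mul_assoc] using this
  have hEC : E ≤ C := fun e he => he.1
  have hEQ : E ≤ Q := fun e he => ((mC e).1 he.1).1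
  have hAE : A ≤ E := fun a ha => ⟨hAC ha, by rw [(mA a).1 ha, one_pow], fun q _ => by rw [(mA a).1 ha]; simp⟩
  have hcen : ∀ a ∈ A, ∀ e ∈ E, a * e = e * a := fun a ha e he => ((mC e).1 he.1).2 a ha
  have hzE : ∀ e ∈ E, (∀ f ∈ E, e * f = f * e) → e ∈ A := by
    intro e he hc
    have := hmax (E ⊓ Subgroup.centralizer (E : Set H)) (Subgroup.normal_inf_normal _ _)
      (fun a ha => ⟨hAE ha, Subgroup.mem_centralizer_iff.2 fun f hf => (hcen a ha f hf).symm⟩)
      (fun a ha => hEQ ha.1) (fun a ha b hb => Subgroup.mem_centralizer_iff.1 hb.2 a ha.1)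
    rw [← this]
    exact ⟨he, Subgroup.mem_centralizer_iff.2 fun f hf => (hc f hf).symm⟩
  have hcom : ∀ e ∈ E, ∀ f ∈ E, e * f * e⁻¹ * f⁻¹ ∈ A := fun e he f hf => (mcom e f).2 (he.2.2 f hf.1)
  have hpw : ∀ e ∈ E, e ^ r ∈ A := fun e he => (mA _).2 (by rw [map_pow]; exact he.2.1)
  refine ⟨E, hEQ, ⟨hAE, hAn, hEn, hcyc, hQ.to_le hAQ, hcen, hzE, hcom, hpw⟩, ?_⟩
  by_contra hno
  push Not at hno
  obtain ⟨e, heC, heA, her, hec⟩ := cen hr C A C (hQ.to_le inf_le_left) le_rfl g ((mC g).2 ⟨hg, hgc⟩) hgA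
  have heE : e ∈ E := ⟨heC, by rw [← map_pow]; exact (mA _).1 her, fun q hq => (mcom _ _).1 (hec q hq)⟩
  obtain ⟨f, hfE, hef⟩ : ∃ f ∈ E, e * f ≠ f * e := by
    by_contra h
    push Not at h
    exact heA (hzE e heE h)
  have hno' : ∀ y ∈ E, y ∉ A → ∀ a ∈ A, y ^ r ≠ a ^ r := by
    intro y hy hyA a ha h
    refine hno (y * a⁻¹) (E.mul_mem hy (E.inv_mem (hAE ha))) (fun h' => hyA ?_) ?_
    · simpa using A.mul_mem h' ha
    · have : Commute y a⁻¹ := (show Commute a y from hcen a ha y hy).symm.inv_right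
      rw [this.mul_pow, inv_pow, h, mul_inv_cancel]
  have key : ∀ u ∈ E, ∀ v ∈ E, ∃ c ∈ A, v * u = c * (u * v) ∧ c ^ r = 1 ∧
      (u * v) ^ r = c ^ r.choose 2 * (u ^ r * v ^ r) := by
    intro u hu v hv
    have h0 : v * u = (v * u * v⁻¹ * u⁻¹) * (u * v) := by group
    have hc := hcom v hv u hu
    refine ⟨_, hc, h0, ?_, pw2 h0 (hcen _ hc u hu) (hcen _ hc v hv) r⟩
    have := pw1 h0 (hcen _ hc v hv) r
    rw [hcen _ (hpw v hv) u hu] at this
    exact (mul_eq_right.1 this.symm)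
  obtain ⟨⟨s, hsA⟩, hs⟩ := hcyc.exists_generator
  have hs' : ∀ a ∈ A, ∃ m : ℤ, s ^ m = a := fun a ha => by
    obtain ⟨m, hm⟩ := hs ⟨a, ha⟩
    exact ⟨m, congrArg Subtype.val hm⟩
  by_cases hgood : ∀ c ∈ A, c ^ r = 1 → ∃ m : ℤ, c ^ r.choose 2 = (s ^ m) ^ r
  · obtain ⟨i, hi⟩ := hs' _ (hpw e heE)
    obtain ⟨j, hj⟩ := hs' _ (hpw f hfE)
    have hri : ¬ (r : ℤ) ∣ i := by
      rintro ⟨t, rfl⟩
      exact hno' e heE heA (s ^ t) (A.zpow_mem hsA t) (by rw [← hi, ← zpow_natCast, ← zpow_mul, mul_comm])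
    have hco : IsCoprime (r : ℤ) i := (Nat.prime_iff_prime_int.1 hr).coprime_iff_not_dvd.2 hri
    obtain ⟨α, β, hαβ⟩ := hco
    obtain ⟨c, hc, -, hcr, hp⟩ := key f hfE (e ^ (-(β * j))) (E.zpow_mem heE _)
    obtain ⟨m, hm⟩ := hgood c hc hcr
    refine hno' (f * e ^ (-(β * j))) (E.mul_mem hfE (E.zpow_mem heE _)) (fun h => hef ?_) (s ^ (m + α * j))
      (A.zpow_mem hsA _) ?_
    · have h1 := hcen _ h e heE
      rw [mul_assoc, ← zpow_add_one, add_comm, zpow_one_add, ← mul_assoc, ← mul_assoc] at h1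
      exact (mul_right_cancel h1).symm
    · rw [hp, hm, ← hj, ← zpow_natCast (e ^ _), ← zpow_mul, mul_comm (-(β * j)), zpow_mul, zpow_natCast, ← hi,
        ← zpow_natCast, ← zpow_natCast, ← zpow_mul, ← zpow_mul, ← zpow_mul, ← zpow_add, ← zpow_add]
      congr 1
      linear_combination (-j) * hαβ
  · push Not at hgood
    obtain ⟨c0, hc0, hc0r, hbad⟩ := hgood
    have r2 : r = 2 := by
      by_contra h2
      obtain ⟨t, ht⟩ := hr.dvd_choose_self (k := 2) two_ne_zero (by have := hr.two_le; omega)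
      exact hbad 0 (by rw [ht, pow_mul, hc0r]; simp)
    subst r2
    have hs2 : s ^ 2 = 1 := by
      obtain ⟨m, rfl⟩ := hs' c0 hc0
      rcases Int.even_or_odd' m with ⟨t, rfl | rfl⟩
      · exact absurd (by rw [← zpow_natCast, ← zpow_natCast, ← zpow_mul, ← zpow_mul]; congr 1; simp; ring) (hbad t)
      · obtain ⟨k, hk⟩ := (hQ.to_le hAQ) ⟨s, hsA⟩
        have hk' : s ^ 2 ^ k = 1 := congrArg Subtype.val hk
        have h1 : (orderOf (s ^ 2) : ℤ) ∣ 2 * t + 1 := by
          rw [orderOf_dvd_iff_zpow_eq_one, ← zpow_natCast, ← zpow_mul, mul_comm, zpow_mul, zpow_natCast]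
          exact hc0r
        have h2 : orderOf (s ^ 2) ∣ 2 ^ k := by
          rw [orderOf_dvd_iff_pow_eq_one, ← pow_mul, mul_comm, pow_mul, hk', one_pow]
        obtain ⟨l, -, hl⟩ := (Nat.dvd_prime_pow Nat.prime_two).1 h2
        rcases l with _ | l
        · exact orderOf_eq_one_iff.1 (by simpa using hl)
        · rw [hl] at h1
          have : (2 : ℤ) ∣ 2 * t + 1 := dvd_trans (by push_cast; exact dvd_pow_self 2 (by omega)) h1
          omega
    have hA2 : ∀ a ∈ A, a = 1 ∨ a = s := by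
      intro a ha
      obtain ⟨m, rfl⟩ := hs' a ha
      have h2 : s ^ (2 : ℤ) = 1 := by exact_mod_cast hs2
      rcases Int.even_or_odd' m with ⟨t, rfl | rfl⟩
      · left; rw [zpow_mul, h2, one_zpow]
      · right; rw [zpow_add_one, zpow_mul, h2, one_zpow, one_mul]
    have hss : s * s = 1 := by rw [← pow_two, hs2]
    have hsc : ∀ h : H, s * h = h * s := by
      intro h
      rcases hA2 _ (hAn.conj_mem s hsA h) with h1 | h1
      · have : s = 1 := by simpa using h1
        simp [this]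
      · exact (mul_inv_eq_iff_eq_mul.1 h1).symm
    have hQC : Q ≤ C := fun q hq => (mC q).2 ⟨hq, fun a ha => by
      rcases hA2 a ha with rfl | rfl
      · simp
      · exact hsc q⟩
    have sq : ∀ y ∈ E, y ∉ A → y ^ 2 = s := fun y hy hyA => (hA2 _ (hpw y hy)).resolve_left (hno y hy hyA)
    have nc : ∀ u ∈ E, ∀ v ∈ E, u ∉ A → v ∉ A → u * v ∉ A → v * u = s * (u * v) := by
      intro u hu v hv h1 h2 h3
      obtain ⟨c, hc, h0, -, hp⟩ := key u hu v hv
      rw [sq u hu h1, sq v hv h2, sq _ (E.mul_mem hu hv) h3, hss] at hp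
      rw [h0, hp]; simp
    have hfA : f ∉ A := fun h => hef (hcen f h e heE).symm
    have hefA : e * f ∉ A := fun h => hef (by
      have := hcen _ h e heE
      rw [mul_assoc] at this
      exact (mul_left_cancel this).symm)
    have hfe : f * e = s * (e * f) := nc e heE f hfE heA hfA hefA
    have hef' : e * f = s * (f * e) := by rw [hfe, ← mul_assoc, hss, one_mul]
    have gen : ∀ c : H, (∀ a ∈ A, a * c = c * a) → c * e = e * c → c * f = f * c → ∀ w ∈ E, w * c = c * w := by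
      intro c hcA hce hcf w hw
      have ce : Commute e c := hce.symm
      have cf : Commute f c := hcf.symm
      by_cases h1 : w ∈ A
      · exact hcA w h1
      by_cases h2 : w * e ∈ A
      · have : Commute (w * e * e⁻¹) c := Commute.mul_left (hcA _ h2) ce.inv_left
        simpa using this.eq
      by_cases h3 : w * f ∈ A
      · have : Commute (w * f * f⁻¹) c := Commute.mul_left (hcA _ h3) cf.inv_left
        simpa using this.eq
      by_cases h4 : w * (e * f) ∈ A
      · have : Commute (w * (e * f) * (e * f)⁻¹) c := Commute.mul_left (hcA _ h4) (ce.mul_left cf).inv_left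
        rw [mul_inv_cancel_right] at this
        exact this.eq
      exfalso
      have a1 := nc w hw e heE h1 heA h2
      have a2 := nc w hw f hfE h1 hfA h3
      have a3 := nc w hw _ (E.mul_mem heE hfE) h1 hefA h4
      have a4 : e * f * w = w * (e * f) := by
        calc e * f * w = e * (s * (w * f)) := by rw [mul_assoc, a2]
          _ = s * (e * w) * f := by rw [← mul_assoc, ← hsc e]; simp only [mul_assoc]
          _ = (s * s) * (w * (e * f)) := by rw [a1]; simp only [mul_assoc]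
          _ = _ := by rw [hss, one_mul]
      rw [a4] at a3
      have : s = 1 := mul_eq_right.1 a3.symm
      exact hef (by rw [hef', this, one_mul])
    have xe : ∀ w ∈ E, w * x = x * w ∨ w * x = s * (x * w) := by
      intro w hw
      rcases hA2 _ ((mcom w x).2 (hw.2.2 x (hQC hx))) with h | h
      · left; rwa [mul_inv_eq_one, mul_inv_eq_iff_eq_mul] at h
      · right; rw [← h]; group
    have ex : ∃ w ∈ E, x * w * e = e * (x * w) ∧ x * w * f = f * (x * w) := by
      rcases xe e heE with h1 | h1 <;> rcases xe f hfE with h2 | h2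
      · exact ⟨1, E.one_mem, by simp [h1], by simp [h2]⟩
      · refine ⟨e, heE, by rw [← mul_assoc, h1], ?_⟩
        rw [← mul_assoc f, h2, mul_assoc, hef', ← mul_assoc, ← hsc x]; simp only [mul_assoc]
      · refine ⟨f, hfE, ?_, by rw [← mul_assoc, h2]⟩
        rw [← mul_assoc e, h1, mul_assoc, hfe, ← mul_assoc, ← hsc x]; simp only [mul_assoc]
      · refine ⟨e * f, E.mul_mem heE hfE, ?_, ?_⟩
        · calc x * (e * f) * e = x * e * (f * e) := by simp only [mul_assoc]
            _ = (x * e * s) * (e * f) := by rw [hfe]; simp only [mul_assoc]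
            _ = (s * (x * e)) * (e * f) := by rw [hsc]
            _ = _ := by rw [← h1]; simp only [mul_assoc]
        · calc x * (e * f) * f = (x * s) * (f * e) * f := by rw [hef']; simp only [mul_assoc]
            _ = (s * (x * f)) * (e * f) := by rw [← hsc x]; simp only [mul_assoc]
            _ = _ := by rw [← h2]; simp only [mul_assoc]
    obtain ⟨w, hw, w1, w2⟩ := ex
    have hxw : x * w ∈ Q := Q.mul_mem hx (hEQ hw)
    have hxwA : x * w ∉ A := fun h => hno x (by simpa using E.mul_mem (hAE h) (E.inv_mem hw)) hxA hxr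
    haveI : (Q ⊓ Subgroup.centralizer (E : Set H)).Normal := Subgroup.normal_inf_normal _ _
    obtain ⟨d, hd, hdA, hdr, hdc⟩ := cen hr Q A (Q ⊓ Subgroup.centralizer (E : Set H)) hQ inf_le_left (x * w)
      ⟨hxw, Subgroup.mem_centralizer_iff.2 (gen _ ((mC _).1 (hQC hxw)).2 w1 w2)⟩ hxwA
    refine hdA (hzE d ⟨hQC hd.1, by rw [← map_pow]; exact (mA _).1 hdr, fun q hq => (mcom _ _).1 (hdc q hq.1)⟩
      fun f hf => (Subgroup.mem_centralizer_iff.1 hd.2 f hf).symm)

end Cfsg.Agent.H3.DGa
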