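import Mathlib

set_option autoImplicit false

/-! Interface for the proportion of derangements (S5731). -/

namespace Cfsg.Agent.H3.DR
open MulAction Finset

universe u v

section
variable (G : Type u) (Ω : Type v) [Group G] [Fintype G] [MulAction G Ω] [Fintype Ω]

open Classical in
/-- number of fixed points -/
noncomputable def fx {G : Type u} (Ω : Type v) [Group G] [MulAction G Ω] [Fintype Ω] (g : G) : ℕ := #{c : Ω | g • c = c}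
open Classical in
/-- proportion of derangements -/
noncomputable def dl : ℝ := (#{g : G | fx Ω g = 0} : ℝ) / Fintype.card G
/-- rank minus one -/
noncomputable def rk : ℝ := (∑ g : G, (fx Ω g : ℝ) * (fx Ω g - 1)) / Fintype.card G
open Classical in
noncomputable def jj : ℝ := (∑ g ∈ univ.erase (1 : G), (fx Ω g : ℝ) * (fx Ω g - 1)) / Fintype.card G
open Classical in
/-- mass of the non-identity elements with many fixed points -/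
noncomputable def MM : ℝ :=
  (∑ g ∈ {g : G | g ≠ 1 ∧ 1.1 * √(Fintype.card Ω) ≤ fx Ω g}, (fx Ω g : ℝ) ^ 2) / Fintype.card G
/-- `m` is a lower bound for the subdegrees -/
def Sub (m : ℕ) : Prop := ∀ c d : Ω, c ≠ d → m ≤ Nat.card (orbit (stabilizer G c) d)
/-- the target -/
def Tg : Prop := (√(Fintype.card Ω) + 1) / (2 * Fintype.card Ω) ≤ dl G Ω
noncomputable def QQ {Ω : Type v} [MulAction G Ω] (w : Ω → ℝ) (c d : Ω) : ℝ :=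
  (∑ t : G, w (t • c) * w (t • d)) / Fintype.card G
noncomputable def UU {Ω : Type v} [MulAction G Ω] [Fintype Ω] (w : Ω → ℝ) : ℝ :=
  (∑ z : G, (fx Ω z : ℝ) * ∑ c : Ω, QQ G w c (z • c)) / Fintype.card G
open Classical in
/-- mixing with constant `ρ` -/
def Mix (ρ : ℝ) : Prop := ∀ (F : Finset Ω) (φ : ℝ), φ = (#F : ℝ) / Fintype.card Ω → ∀ c d : Ω, c ≠ d →
  (#{t : G | t • c ∈ F ∧ t • d ∈ F} : ℝ) ≤ (φ ^ 2 + φ * (1 - φ) * ρ) * Fintype.card G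
open Classical in
/-- random element `y θ` fixing the random set `J θ` -/
structure Sys {Θ : Type u} [Fintype Θ] (y : Θ → G) (J : Θ → Finset Ω) (m : ℕ) (p q : ℝ) : Prop where
  ne : Nonempty Θ
  fix : ∀ θ, ∀ c ∈ J θ, y θ • c = c
  one : ∀ c, (#{θ | c ∈ J θ} : ℝ) = p * Fintype.card Θ
  two : ∀ c d, c ≠ d → (#{θ | c ∈ J θ ∧ d ∈ J θ} : ℝ) ≤ q * Fintype.card Θ
  dia : ∀ c : Ω, (#{θ | y θ • c = c} : ℝ) ≤ (p + (1 - p) / m) * Fintype.card Θ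
  off : ∀ c d : Ω, c ≠ d → (#{θ | y θ • c = d} : ℝ) ≤ (1 - p) / m * Fintype.card Θ
/-- the multiplication inequality -/
def Kq (m : ℕ) (p q : ℝ) : Prop :=
  (∑ x : G, (max (fx Ω x * p - 1) 0) ^ 2 / (fx Ω x * p + Fintype.card Ω / m)) / Fintype.card G ≤ dl G Ω * q
end

/-- basic identities -/
def PB : Prop := ∀ (G : Type u) (Ω : Type v) [Group G] [Fintype G] [MulAction G Ω] [Fintype Ω] [Nonempty Ω],
  IsPretransitive G Ω → (∑ g : G, (fx Ω g : ℝ) = Fintype.card G) ∧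
  (dl G Ω * Fintype.card G = ∑ g : G, max ((fx Ω g : ℝ) - 1) 0) ∧
  (∀ m : ℕ, Sub G Ω m → m * rk G Ω ≤ Fintype.card Ω) ∧
  jj G Ω - 1.1 * √(Fintype.card Ω) * dl G Ω ≤ MM G Ω ∧
  (∀ F : ℝ, (∀ g : G, g ≠ 1 → (fx Ω g : ℝ) ≤ F) → jj G Ω ≤ F * dl G Ω) ∧
  (∀ a b : Ω, a ≠ b → 3 ≤ Nat.card (stabilizer (stabilizer G a) b) → 2 / 3 ≤ jj G Ω)

def P1 : Prop := ∀ (G : Type u) (Ω : Type v) [Group G] [Fintype G] [MulAction G Ω] [Fintype Ω],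
  IsPretransitive G Ω → 100 ≤ Fintype.card Ω → ¬ IsPreprimitive G Ω → Tg G Ω

def P2 : Prop := ∀ (G : Type u) (Ω : Type v) [Group G] [Fintype G] [MulAction G Ω] [FaithfulSMul G Ω] [Fintype Ω],
  IsPretransitive G Ω → 100 ≤ Fintype.card Ω → (∀ g : G, g ≠ 1 → (fx Ω g : ℝ) ≤ √(Fintype.card Ω)) →
  ((∀ g : G, g ≠ 1 → fx Ω g = 0) ∨ ∃ g : G, g ≠ 1 ∧ 2 ≤ fx Ω g) → Tg G Ω

def P3 : Prop := ∀ (G : Type u) (Ω : Type v) [Group G] [Fintype G] [MulAction G Ω] [FaithfulSMul G Ω] [Fintype Ω],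
  IsPreprimitive G Ω → 10000 ≤ Fintype.card Ω → (∀ a b : Ω, a ≠ b → Nat.card (stabilizer (stabilizer G a) b) ≤ 2) →
  (∃ g : G, g ≠ 1 ∧ √(Fintype.card Ω) < fx Ω g) → Tg G Ω

def PA : Prop := ∀ (G : Type u) (Ω : Type v) [Group G] [Fintype G] [MulAction G Ω] [Fintype Ω] (a b : Ω),
  IsPretransitive G Ω → a ≠ b → 1 ≤ dl G Ω * (Nat.card (orbit (stabilizer G a) b) + 1)

def PM1 : Prop := ∀ (G : Type u) (Ω : Type v) [Group G] [Fintype G] [MulAction G Ω] [Fintype Ω] (w : Ω → ℝ),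
  IsPretransitive G Ω → ∑ c, ∑ d, QQ G w c d ^ 2 ≤ (∑ c, w c ^ 2) * UU G w

def PM2 : Prop := ∀ (G : Type u) (Ω : Type v) [Group G] [Fintype G] [MulAction G Ω] [Fintype Ω] [Nonempty Ω]
  (w : Ω → ℝ) (m : ℕ), IsPretransitive G Ω → ∑ c, w c = 0 → 0 < m → Sub G Ω m →
  UU G w ≤ (∑ c, w c ^ 2) * rk G Ω / Fintype.card Ω +
    2 * dl G Ω * √(Fintype.card Ω / m) * √(∑ c, ∑ d, QQ G w c d ^ 2)

def PM : Prop := ∀ (G : Type u) (Ω : Type v) [Group G] [Fintype G] [MulAction G Ω] [Fintype Ω] [Nonempty Ω]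
  (m : ℕ) (s : ℝ), IsPretransitive G Ω → 0 < m → Sub G Ω m → 0 < s →
  s * (m * rk G Ω / Fintype.card Ω) + 2 * dl G Ω * √(Fintype.card Ω) * √s < 1 → Mix G Ω (√(Fintype.card Ω) / (√s * m))

def PJ : Prop := ∀ (G : Type u) (Ω : Type v) [Group G] [Fintype G] [MulAction G Ω] [Fintype Ω] (a b : Ω) (m : ℕ),
  IsPretransitive G Ω → 10 ^ 16 ≤ Fintype.card Ω → a ≠ b → m = Nat.card (orbit (stabilizer G a) b) → Sub G Ω m →
  3 ≤ Nat.card (stabilizer (stabilizer G a) b) → dl G Ω * √(Fintype.card Ω) ≤ 0.501 →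
  (Fintype.card Ω : ℝ) ≤ 100 * m * jj G Ω

def PP : Prop := ∀ (G : Type u) (Ω : Type v) [Group G] [Fintype G] [MulAction G Ω] [Fintype Ω] [Nonempty Ω] (g : G)
  (m k : ℕ) (ρ φ : ℝ), IsPretransitive G Ω → 0 < m → Sub G Ω m → 0 ≤ ρ → Mix G Ω ρ → φ = (fx Ω g : ℝ) / Fintype.card Ω →
  ∃ (Θ : Type u) (_ : Fintype Θ) (y : Θ → G) (J : Θ → Finset Ω),
    Sys G Ω y J m (φ ^ k) ((φ ^ 2 + φ * (1 - φ) * ρ) ^ k)

def PK : Prop := ∀ (G : Type u) (Ω : Type v) [Group G] [Fintype G] [MulAction G Ω] [Fintype Ω] [Nonempty Ω]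
  (Θ : Type u) [Fintype Θ] (y : Θ → G) (J : Θ → Finset Ω) (m : ℕ) (p q : ℝ), IsPretransitive G Ω → 0 < m → 0 < p → p ≤ 1 →
  Sys G Ω y J m p q → Kq G Ω m p q

def PS : Prop := ∀ (G : Type u) (Ω : Type v) [Group G] [Fintype G] [MulAction G Ω] [Fintype Ω] (m : ℕ) (φ β : ℝ),
  100 ≤ Fintype.card Ω → 0 < m → 1 / √(Fintype.card Ω) ≤ φ → φ < 1 → 1 ≤ β →
  (∀ g : G, g ≠ 1 → (fx Ω g : ℝ) ≤ φ * Fintype.card Ω) → (∀ k : ℕ, Kq G Ω m (φ ^ k) ((φ ^ 2 * β) ^ k)) →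
  MM G Ω ≤ 121 * dl G Ω * β * (Fintype.card Ω * φ ^ 2 + Fintype.card Ω / m) ∧
  ∀ T : ℝ, 1.1 ≤ T → T ≤ √(Fintype.card Ω) → ∃ k : ℕ, T / Fintype.card Ω ≤ φ ^ k ∧
    MM G Ω ≤ (2 * Real.log (Fintype.card Ω) + 1) * 121 * dl G Ω * β ^ k * (2 * T / φ + Fintype.card Ω / m)

/-- numerics -/
def PN : Prop := ∃ N : ℕ, ∀ (n m δ j M φ ρ β : ℝ), N ≤ n → 0 < m → 0 ≤ δ → δ * √n ≤ 0.501 → 1 ≤ δ * (m + 1) →
  n ≤ 100 * m * j → 2 / 3 ≤ j → j - 1.1 * √n * δ ≤ M → j ≤ φ * n * δ → 1 / √n ≤ φ → φ < 1 →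
  ρ = √n / (0.6 * m) → β = 1 + (1 - φ) * ρ / φ → M ≤ 121 * δ * β * (n * φ ^ 2 + n / m) →
  (∀ T : ℝ, 1.1 ≤ T → T ≤ √n → ∃ k : ℕ, T / n ≤ φ ^ k ∧
    M ≤ (2 * Real.log n + 1) * 121 * δ * β ^ k * (2 * T / φ + n / m)) → False

end Cfsg.Agent.H3.DR
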