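import Cfsg.Agent.H8.Parity

/-! Automorphisms of the orthogonal group in dimension eight over the field with two elements. -/

set_option autoImplicit false
set_option linter.unusedSectionVars false
set_option linter.unusedSimpArgs false

namespace Cfsg.Agent.H3.HO

open QuadraticMap Module H8

variable {V : Type*} [AddCommGroup V] [Module (ZMod 2) V] [FiniteDimensional (ZMod 2) V] {Q : QuadraticForm (ZMod 2) V}

/-- Siegel elements with centre `s` -/
def Sv (Q : QuadraticForm (ZMod 2) V) (c : ZMod 2) (t : V ≃ₗ[ZMod 2] V) (s : V) : Prop :=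
  Q s = 0 ∧ s ≠ 0 ∧ ∃ u, polar Q s u = 0 ∧ u ∉ sp (ZMod 2) [s] ∧ Q u = c ∧ t = siegel Q s u

theorem z2 (a : ZMod 2) : a = 0 ∨ a = 1 := by revert a; decide
theorem pself (x : V) : polar Q x x = 0 := by rw [pol_self, show (2 : ZMod 2) = 0 from rfl, zero_mul]

theorem Sv.phi {c t s} (h : Sv Q c t s) (y : V) : polar Q y (t y) = c * polar Q y s := by
  obtain ⟨h1, -, u, h2, -, rfl, rfl⟩ := h
  rw [siegel_apply h1 h2, polar_sub_right, polar_add_right, pol_smul_right, pol_smul_right, pself]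
  generalize polar Q y s = a, polar Q y u = b, Q u = c
  revert a b c; decide

theorem Sv.conj {c t s} (h : Sv Q c t s) {g : V ≃ₗ[ZMod 2] V} (hg : g ∈ OG Q) : Sv Q c (g * t * g⁻¹) (g s) := by
  obtain ⟨h1, h0, u, h2, h3, h4, rfl⟩ := h
  refine ⟨(hg s).trans h1, by simpa using h0, g u, (OG_pol hg s u).trans h2, fun e => h3 ?_, (hg u).trans h4,
    siegel_conj hg s u⟩
  obtain ⟨c, e⟩ := mem_sp_one.1 e
  exact mem_sp_one.2 ⟨c, g.injective (by simpa using e)⟩

variable (hN : ND Q) (h8 : finrank (ZMod 2) V = 8)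
include hN

theorem eq_of_pol {s s' : V} (h : ∀ y, polar Q y s = polar Q y s') : s = s' :=
  sub_eq_zero.1 (hN _ fun y => by rw [pol_comm, polar_sub_right, h, sub_self])

theorem Sv.uniq {t s s'} (h : Sv Q 1 t s) (h' : Sv Q 1 t s') : s = s' :=
  eq_of_pol hN fun y => by simpa using (h.phi y).symm.trans (h'.phi y)

theorem Sv.eq_of_mul {t t' s s'} (h : Sv Q 1 t s) (h' : Sv Q 1 t' s') (hc : t' * t = t * t')
    (h0 : ∀ y, polar Q y (t (t' y)) = 0) : s = s' := by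
  have o' : t' ∈ OG Q := by obtain ⟨-, -, u, -, -, -, rfl⟩ := h'; exact siegel_mem_OG _ _
  have e1 : t' s = s := (mul_inv_eq_iff_eq_mul.2 hc ▸ h.conj o').uniq hN h
  obtain ⟨h1, s0, u, h2, -, h4, rfl⟩ := h
  obtain ⟨f, -, hf⟩ := hN.ndOn_top.exists_pol_eq_one trivial s0
  have e2 := LinearEquiv.congr_fun ((siegel_conj o' s u).symm.trans (mul_inv_eq_iff_eq_mul.2 hc)) f
  rw [e1, siegel_apply h1 h2, siegel_apply h1 (by rw [← e1, OG_pol o', h2]), pol_comm Q f s, hf, o', one_smul,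
    one_smul] at e2
  obtain ⟨c, e3⟩ : ∃ c : ZMod 2, u = t' (u + c • s) := ⟨polar Q f u - polar Q f (t' u), by
    rw [map_add, map_smul, e1]; linear_combination (norm := module) -e2⟩
  have key : ∀ y, polar Q y s' = (c + 1) * polar Q y s := fun y => by
    have e4 := h0 y
    have e5 : polar Q (t' y) s = polar Q y s := by rw [← OG_pol o' y s, e1]
    have e6 : polar Q (t' y) u = polar Q y u + c * polar Q y s := by
      rw [← pol_smul_right, ← polar_add_right, ← OG_pol o' y, ← e3]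
    rw [siegel_apply h1 h2, polar_sub_right, polar_add_right, pol_smul_right, pol_smul_right, h'.phi, e5, e6, h4] at e4
    generalize polar Q y s = a, polar Q y u = b, polar Q y s' = d at e4
    clear * - e4; revert a b c d; decide
  rcases z2 c with rfl | rfl
  · exact eq_of_pol hN fun y => by simpa using (key y).symm
  · exact (h'.2.1 (eq_of_pol hN fun y => by rw [key, polar_zero_right]; exact zero_mul _)).elim

include h8

theorem exists_ns (l : List V) (h : l.length ≤ 3) : ∃ z, Q z = 1 ∧ ∀ w ∈ l, polar Q w z = 0 := by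
  have h1 := finrank_le_inf_perp_sp (Q := Q) ⊤ l
  obtain ⟨v, h2, h3⟩ := hN.ndOn_top.exists_nonsing hN (T := ⊤ ⊓ perp Q (sp (ZMod 2) l)) le_top (by
    rw [finrank_top] at h1 ⊢; omega)
  exact ⟨v, (z2 _).resolve_left h3, mem_perp_sp.1 h2.2⟩

theorem Sv.isConj {c t t' s s'} (h : Sv Q c t s) (h' : Sv Q c t' s') : ∃ e ∈ Om Q, e * t * e⁻¹ = t' := by
  obtain ⟨g, g1, rfl⟩ := Om_trans hN (by omega) h.2.1 h'.2.1 (h.1.trans h'.1.symm)
  suffices ∃ e ∈ Om Q, e * (g * t * g⁻¹) * e⁻¹ = t' by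
    obtain ⟨e, e1, e2⟩ := this
    exact ⟨e * g, mul_mem e1 g1, by rw [← e2]; group⟩
  replace h := h.conj (Om_le_OG g1)
  generalize g * t * g⁻¹ = t, g s = s at h h'
  obtain ⟨h1, s0, u, h2, h3, h4, rfl⟩ := h
  obtain ⟨-, -, u', h2', h3', h4', rfl⟩ := h'
  obtain ⟨f, -, f1, f2⟩ := hN.ndOn_top.exists_partner trivial s0 h1
  have n := ndOn_pair h1 f1 (f2.trans_ne one_ne_zero)
  have d := finrank_le_inf_perp_sp (Q := Q) ⊤ [s, f]
  have m : ∀ u, polar Q s u = 0 → u + polar Q f u • s ∈ ⊤ ⊓ perp Q (sp (ZMod 2) [s, f]) := fun u h => ⟨trivial,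
    mem_perp_sp.2 (by simp [pol_smul_right, h, h1, pol_comm Q f s, f2, CharTwo.add_self_eq_zero])⟩
  have n0 : ∀ u ∉ sp (ZMod 2) [s], u + polar Q f u • s ≠ 0 := fun u h e =>
    h (mem_sp_one.2 ⟨-polar Q f u, by rw [neg_smul]; exact eq_neg_of_add_eq_zero_left e⟩)
  obtain ⟨e, e1, e2⟩ := EG_trans hN (hN.ndOn_top.inf_perp_nd le_top n) (by rw [finrank_top] at d; simp at d; omega)
    (m u h2) (m u' h2') (n0 u h3) (n0 u' h3') (by
      simp [Q_add, Q_smul, pol_smul_right, h1, pol_comm Q _ s, h2, h2', h4, h4'])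
  have e3 := EG_le_Om hN (by omega) _ e1
  refine ⟨e, e3, ?_⟩
  rw [← siegel_add_smul h1 h2 (polar Q f u), siegel_conj (Om_le_OG e3), e2,
    EG_le_Fix inf_le_right e1 s (mem_sp_of_mem (by simp)), siegel_add_smul h1 h2']

theorem sv_of {s u : V} (h1 : Q s = 0) (h0 : s ≠ 0) (h2 : polar Q s u = 0) (h3 : Q u = 1) : Sv Q 1 (siegel Q s u) s :=
  ⟨h1, h0, u, h2, fun e => by
    obtain ⟨c, rfl⟩ := mem_sp_one.1 e
    simp [Q_smul, h1] at h3, h3, rfl⟩

/-- an automorphism preserving the two classes of Siegel elements -/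
def Gd (α : MulAut (Om Q)) : Prop := ∀ c (t : Om Q) s, Sv Q c t s → ∃ s', Sv Q c (α t) s'

/-- the induced relation on singular vectors -/
def Rl (α : MulAut (Om Q)) (s s' : V) : Prop := ∃ t : Om Q, Sv Q 1 t s ∧ Sv Q 1 (α t) s'

omit hN h8 in
theorem Rl.conj {α : MulAut (Om Q)} {s s'} (h : Rl α s s') (x : Om Q) : Rl α (x.1 s) ((α x).1 s') := by
  obtain ⟨t, h1, h2⟩ := h
  exact ⟨x * t * x⁻¹, h1.conj (Om_le_OG x.2), by simpa using h2.conj (Om_le_OG (α x).2)⟩

theorem Gd.inv {α : MulAut (Om Q)} (h : Gd α) : Gd α⁻¹ := fun c t s ht => by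
  obtain ⟨s', h1⟩ := h c t s ht
  obtain ⟨e, e1, e2⟩ := h1.isConj hN h8 ht
  have e3 : α⁻¹ t = α⁻¹ ⟨e, e1⟩ * t * (α⁻¹ ⟨e, e1⟩)⁻¹ := α.injective (Subtype.ext (by simpa using e2.symm))
  exact ⟨_, by rw [e3]; exact ht.conj (Om_le_OG (α⁻¹ ⟨e, e1⟩).2)⟩

theorem gd_of {α : MulAut (Om Q)} (h : ∀ c, ∃ (t : Om Q) (s : V), Sv Q c t s ∧ IsConj t (α t)) : Gd α := fun c t s ht => by
  obtain ⟨t', s', h1, h2⟩ := h c
  obtain ⟨e, e1, e2⟩ := h1.isConj hN h8 ht
  obtain ⟨x, h2⟩ := isConj_iff.1 h2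
  have e3 : α t = α ⟨e, e1⟩ * x * t' * (α ⟨e, e1⟩ * x)⁻¹ := by
    rw [show t = ⟨e, e1⟩ * t' * ⟨e, e1⟩⁻¹ from Subtype.ext e2.symm, map_mul, map_mul, map_inv, ← h2]; group
  exact ⟨_, by rw [e3]; exact h1.conj (Om_le_OG (α ⟨e, e1⟩ * x).2)⟩

variable {α : MulAut (Om Q)} (hα : Gd α)
include hα

theorem Gd.ex {s u : V} (h1 : Q s = 0) (h0 : s ≠ 0) (h2 : polar Q s u = 0) (h3 : Q u = 1) :
    ∃ s', Sv Q 1 (α ⟨_, siegel_mem_Om hN (by omega) s u⟩) s' := hα _ _ _ (sv_of hN h8 h1 h0 h2 h3)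

theorem Rl.uniq {s s1 s2} (h : Rl α s s1) (h' : Rl α s s2) : s1 = s2 := by
  have key : ∀ {t t' : Om Q} {u u' s1 s2}, Q s = 0 → s ≠ 0 → polar Q s u = 0 → polar Q s u' = 0 → Q u = 1 → Q u' = 1 →
      polar Q u u' = 0 → t.1 = siegel Q s u → t'.1 = siegel Q s u' → Sv Q 1 (α t) s1 → Sv Q 1 (α t') s2 → s1 = s2 := by
    intro t t' u u' s1 s2 a0 a1 a2 a3 a4 a5 a6 e e' k k'
    have e1 : (t * t').1 = siegel Q s (u + u') := by rw [← siegel_mul a0 a2 a3, ← e, ← e']; rfl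
    refine k.eq_of_mul hN k' (congrArg Subtype.val (show α t' * α t = α t * α t' by
      rw [← map_mul, ← map_mul, show t' * t = t * t' from Subtype.ext (by
        rw [e1, add_comm, ← siegel_mul a0 a3 a2, ← e, ← e']; rfl)])) fun y => ?_
    change polar Q y ((α t * α t').1 y) = 0
    rw [← map_mul]
    by_cases m : u + u' ∈ sp (ZMod 2) [s]
    · obtain ⟨c, m⟩ := mem_sp_one.1 m
      rw [m, ← zero_add (c • s), siegel_add_smul a0 (by simp), siegel_zero] at e1
      rw [show t * t' = 1 from Subtype.ext e1, map_one]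
      exact pself y
    obtain ⟨s', k⟩ := hα 0 (t * t') s ⟨a0, a1, _, by simp [a2, a3], m, by rw [Q_add, a4, a5, a6]; rfl, e1⟩
    simpa using k.phi y
  obtain ⟨t, ⟨a0, a1, u, a2, -, a3, e⟩, k⟩ := h
  obtain ⟨t', ⟨-, -, u', a4, -, a5, e'⟩, k'⟩ := h'
  obtain ⟨z, z1, z2⟩ := exists_ns hN h8 [s, u, u'] le_rfl
  simp only [List.mem_cons, List.not_mem_nil, or_false, forall_eq_or_imp, forall_eq] at z2
  obtain ⟨s3, k3⟩ := hα.ex hN h8 a0 a1 z2.1 z1
  exact (key a0 a1 a2 z2.1 a3 z1 z2.2.1 e rfl k k3).trans (key a0 a1 a4 z2.1 a5 z1 z2.2.2 e' rfl k' k3).symm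

theorem Rl.perp {s s' y y'} (h : Rl α s s') (h' : Rl α y y') (h0 : polar Q s y = 0) : polar Q s' y' = 0 := by
  obtain ⟨z, z1, z2⟩ := exists_ns hN h8 [s, y] (by simp)
  simp only [List.mem_cons, List.not_mem_nil, or_false, forall_eq_or_imp, forall_eq] at z2
  have a := h.choose_spec.1
  obtain ⟨s3, k3⟩ := hα.ex hN h8 a.1 a.2.1 z2.1 z1
  have e := h'.conj ⟨_, siegel_mem_Om hN (by omega) s z⟩
  rw [siegel_fix ((pol_comm ..).trans h0) z2.2] at e
  have := k3.phi y'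
  rwa [e.uniq hN h8 hα h', pself, one_mul, pol_comm, ← h.uniq hN h8 hα ⟨_, sv_of hN h8 a.1 a.2.1 z2.1 z1, k3⟩,
    eq_comm] at this

theorem Rl.pol {s s' y y'} (h : Rl α s s') (h' : Rl α y y') : polar Q s' y' = polar Q s y := by
  have i : ∀ {s s'}, Rl α s s' → Rl α⁻¹ s' s := fun ⟨t, a, b⟩ => ⟨α t, b, by simpa using a⟩
  have e1 := h.perp hN h8 hα h'
  have e2 := (i h).perp hN h8 (hα.inv hN h8) (i h')
  generalize polar Q s' y' = a, polar Q s y = b at e1 e2
  revert a b; decide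

theorem Gd.main {ι : Type*} (b : Basis ι (ZMod 2) V) (hb : ∀ i, Q (b i) = 0) :
    ∃ g ∈ OG Q, ∀ x : Om Q, (α x).1 = g * x * g⁻¹ := by
  have ex : ∀ s, Q s = 0 → s ≠ 0 → ∃ s', Rl α s s' := fun s h1 h0 => by
    obtain ⟨z, z1, z2⟩ := exists_ns hN h8 [s] (by simp)
    obtain ⟨s3, k3⟩ := hα.ex hN h8 h1 h0 (z2 s (by simp)) z1
    exact ⟨s3, _, sv_of hN h8 h1 h0 (z2 s (by simp)) z1, k3⟩
  choose σ hσ using fun i => ex _ (hb i) (b.ne_zero i)
  let g := b.constr (ZMod 2) σ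
  have g1 : ∀ x y, polar Q (g x) (g y) = polar Q x y := fun x y =>
    LinearMap.congr_fun₂ (f := Q.polarBilin.compl₁₂ g g) (g := Q.polarBilin) (b.ext fun i => b.ext fun j => by
      simpa [g] using (hσ i).pol hN h8 hα (hσ j)) x y
  have g2 : Function.Injective g := (injective_iff_map_eq_zero _).2 fun x hx => hN x fun y => by
    rw [← g1, hx, polar_zero_left]
  let G := LinearEquiv.ofInjectiveEndo g g2
  have g3 : ∀ s s', Rl α s s' → g s = s' := fun s s' h => eq_of_pol hN fun y => by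
    obtain ⟨y, rfl⟩ := G.surjective y
    refine LinearMap.congr_fun (f := (Q.polarBilin.flip (g s)).comp g) (g := (Q.polarBilin.flip s').comp g)
      (b.ext fun i => ?_) y
    simpa [g1] using (by simpa [g] using ((hσ i).pol hN h8 hα h).symm : polar Q (b i) s = polar Q (g (b i)) s')
  refine ⟨G, fun x => ?_, fun x => eq_mul_inv_of_mul_eq (LinearEquiv.toLinearMap_injective (b.ext fun i => ?_))⟩
  · change Q (g x) = Q x
    induction b.mem_span x using Submodule.span_induction with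
    | mem x h => obtain ⟨i, rfl⟩ := h; rw [g3 _ _ (hσ i), hb, (hσ i).choose_spec.2.1]
    | zero => simp
    | add x y _ _ h h' => rw [map_add, Q_add, Q_add, h, h', g1]
    | smul c x _ h => rw [map_smul, Q_smul, Q_smul, h]
  · change (α x).1 (g (b i)) = g (x.1 (b i))
    rw [g3 _ _ ((hσ i).conj x), g3 _ _ (hσ i)]

omit hα in
theorem mem_Om {g t x : V ≃ₗ[ZMod 2] V} (hg : g ∈ OG Q) (hx : x ∈ Om Q) (h : g * t * g⁻¹ = x * t * x⁻¹)
    (hW : MaxTS Q (LinearMap.range (t.toLinearMap - 1))) : g ∈ Om Q := by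
  obtain ⟨a, a1, -⟩ := exists_ns hN h8 [] (by simp)
  have h5 : 5 ≤ finrank (ZMod 2) V := by omega
  have r := refl_mem_OG (Q := Q) a
  have rr : ∀ y, refl Q a * (refl Q a * y) = y := fun y => by rw [← mul_assoc, refl_mul_self, one_mul]
  have key : ∀ g ∈ OG Q, g ∈ Om Q ∨ g * refl Q a ∈ Om Q := fun g hg => by
    let C : Subgroup (V ≃ₗ[ZMod 2] V) :=
      { carrier := {g | g ∈ Om Q ∨ g * refl Q a ∈ Om Q}
        one_mem' := .inl (one_mem _)
        mul_mem' := by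
          rintro x y (hx | hx) (hy | hy)
          · exact .inl (mul_mem hx hy)
          · exact .inr (by simpa [mul_assoc] using mul_mem hx hy)
          · exact .inr (by simpa [mul_assoc, refl_inv, rr] using mul_mem hx (Om_conj r hy))
          · exact .inl (by simpa [mul_assoc, refl_inv, rr, refl_mul_self] using mul_mem hx (Om_conj r hy))
        inv_mem' := by
          rintro x (hx | hx)
          · exact .inl (inv_mem hx)
          · exact .inr (by simpa [mul_assoc, refl_inv, rr] using Om_conj r (inv_mem hx)) }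
    exact OG_gen_top hN C (fun c hc => .inr (refl_mul_refl_mem_Om hN h5 (((z2 _).resolve_left hc).trans a1.symm)))
      (fun u v _ _ _ => .inl (siegel_mem_Om hN h5 u v)) hg
  refine (key g hg).resolve_right fun e => ?_
  have e1 := refl_parity hN hW hW (a1.trans_ne one_ne_zero)
  have e2 := Om_parity hN h5 (mul_mem (inv_mem hx) e) hW (hW.map r)
  rw [← Submodule.map_comp, ← End.mul_eq_comp, ← LinearEquiv.coe_toLinearMap_mul, mul_assoc, mul_assoc, refl_mul_self, mul_one,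
    ← LinearMap.range_comp, show ((x⁻¹ * g : V ≃ₗ[ZMod 2] V) : V →ₗ[ZMod 2] V) ∘ₗ (t.toLinearMap - 1) =
      (t.toLinearMap - 1) ∘ₗ (x⁻¹ * g : V ≃ₗ[ZMod 2] V) from LinearMap.ext fun v => by
        have := LinearEquiv.congr_fun (show x⁻¹ * g * t = t * (x⁻¹ * g) by
          rw [mul_assoc, mul_inv_eq_iff_eq_mul.1 h]; group) v
        simpa [sub_eq_sub_iff_add_eq_add] using this, LinearMap.range_comp_of_range_eq_top _ (LinearEquiv.range _)] at e2
  exact Nat.not_even_iff_odd.2 e1 e2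

end Cfsg.Agent.H3.HO
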