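import Mathlib

/-! Automorphisms of symplectic groups over the field with two elements that preserve transvections. -/

set_option autoImplicit false
set_option linter.unusedSectionVars false
set_option linter.unusedSimpArgs false

namespace Cfsg.Agent.H3.HO

open Matrix

variable {l : Type} [Fintype l] [DecidableEq l]

/-- vectors -/
abbrev Vs (l : Type) := l ⊕ l → ZMod 2
/-- the symplectic group -/
abbrev Sp (l : Type) [Fintype l] [DecidableEq l] := symplecticGroup l (ZMod 2)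

/-- the form -/
def Bf : LinearMap.BilinForm (ZMod 2) (Vs l) := Matrix.toBilin' (J l (ZMod 2))

theorem Bf_apply (x y : Vs l) : Bf x y = ∑ i, (x (.inl i) * y (.inr i) + x (.inr i) * y (.inl i)) := by
  simp [Bf, toBilin'_apply', J, dotProduct, fromBlocks_mulVec, neg_mulVec, Finset.sum_add_distrib, Function.comp_def]

theorem Bf_comm (x y : Vs l) : Bf x y = Bf y x := by simp [Bf_apply, mul_comm, add_comm]
theorem Bf_self (x : Vs l) : Bf x x = 0 := by simp [Bf_apply, mul_comm, CharTwo.add_self_eq_zero]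
theorem Bf_ext {x y : Vs l} (h : ∀ z, Bf z x = Bf z y) : x = y := by
  ext (i | i)
  · simpa [Bf_apply, Pi.single_apply] using h (Pi.single (.inr i) 1)
  · simpa [Bf_apply, Pi.single_apply] using h (Pi.single (.inl i) 1)

theorem mem_Sp {A : Matrix (l ⊕ l) (l ⊕ l) (ZMod 2)} : A ∈ Sp l ↔ ∀ x y, Bf (A *ᵥ x) (A *ᵥ y) = Bf x y := by
  rw [SymplecticGroup.mem_iff', ← toBilin'.injective.eq_iff, LinearMap.ext_iff₂]
  simp [Bf, toBilin'_apply', ← mulVec_mulVec, dotProduct_mulVec, vecMul_transpose]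

theorem z2' (a : ZMod 2) : a = 0 ∨ a = 1 := by revert a; decide

theorem tv_apply (v x : Vs l) : (1 + vecMulVec v (J l (ZMod 2) *ᵥ v)) *ᵥ x = x + Bf x v • v := by
  simp [add_mulVec, vecMulVec_mulVec, Bf, toBilin'_apply', dotProduct_comm]

/-- transvections -/
def Tv (v : Vs l) : Sp l := ⟨1 + vecMulVec v (J l (ZMod 2) *ᵥ v), mem_Sp.2 fun x y => by
  simp [tv_apply, Bf_self, Bf_comm v y, mul_comm, add_assoc, CharTwo.add_self_eq_zero]⟩

theorem Tv_apply (v x : Vs l) : (Tv v).1 *ᵥ x = x + Bf x v • v := tv_apply v x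

theorem Sp_ext {g h : Sp l} (e : ∀ x, g.1 *ᵥ x = h.1 *ᵥ x) : g = h := Subtype.ext (mulVec_injective (funext e))

theorem Tv_inj {v w : Vs l} (h : Tv v = Tv w) : v = w := Bf_ext fun z => by
  have := congrArg (fun g : Sp l => Bf z (g.1 *ᵥ z)) h
  simp only [Tv_apply, map_add, map_smul, Bf_self, zero_add, smul_eq_mul] at this
  generalize Bf z v = a, Bf z w = b at this
  revert a b; decide

theorem Tv_conj (g : Sp l) (v : Vs l) : g * Tv v * g⁻¹ = Tv (g.1 *ᵥ v) :=
  mul_inv_eq_iff_eq_mul.2 (Sp_ext fun x => by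
    simp [← mulVec_mulVec, Tv_apply, mulVec_add, mulVec_smul, mem_Sp.1 g.2])

theorem Tv_zero : Tv (0 : Vs l) = 1 := Sp_ext fun x => by simp [Tv_apply]

theorem Tv_comm {v w : Vs l} : Tv v * Tv w = Tv w * Tv v ↔ Bf w v = 0 ∨ v = 0 := by
  rw [← mul_inv_eq_iff_eq_mul, Tv_conj]
  refine ⟨fun h => by simpa [Tv_apply] using Tv_inj h, fun h => ?_⟩
  rcases h with h | h <;> simp [Tv_apply, h]

theorem Tv_isConj {v w : Vs l} (hv : v ≠ 0) (hw : w ≠ 0) : IsConj (Tv v) (Tv w) := by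
  have key : ∀ {v w : Vs l}, Bf v w = 1 → IsConj (Tv v) (Tv w) := fun {v w} h => isConj_iff.2 ⟨Tv (v + w), by
    rw [Tv_conj, Tv_apply]; simp [Bf_self, h, ← add_assoc, ZModModule.add_self]⟩
  have ex : ∀ v : Vs l, v ≠ 0 → ∃ a, Bf a v = 1 := fun v hv => by_contra fun h =>
    hv (Bf_ext fun z => by simpa using (z2' _).resolve_right (not_exists.1 h z))
  obtain ⟨a, ha⟩ := ex v hv
  obtain ⟨b, hb⟩ := ex w hw
  rcases z2' (Bf a w) with h1 | h1
  · rcases z2' (Bf b v) with h2 | h2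
    · exact (key (v := a + b) (by simp [ha, h2])).symm.trans (key (by simp [hb, h1]))
    · exact (key h2).symm.trans (key hb)
  · exact (key ha).symm.trans (key h1)

theorem sp_center {z : Sp l} (h : ∀ g, g * z = z * g) : z = 1 := Sp_ext fun v => by
  simpa using Tv_inj ((Tv_conj z v).symm.trans (mul_inv_eq_iff_eq_mul.2 (h _).symm))

theorem sp_inner (α : MulAut (Sp l)) {v : Vs l} (hv : v ≠ 0) (h : IsConj (Tv v) (α (Tv v))) :
    ∃ g : Sp l, ∀ x, α x = g * x * g⁻¹ := by
  have ex : ∀ w : Vs l, ∃ w', α (Tv w) = Tv w' := fun w => by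
    by_cases h0 : w = 0
    · exact ⟨0, by simp [h0, Tv_zero]⟩
    obtain ⟨g, hg⟩ := isConj_iff.1 (h.trans (α.toMonoidHom.map_isConj (Tv_isConj hv h0)))
    exact ⟨_, hg.symm.trans (Tv_conj g v)⟩
  choose σ hσ using ex
  have inj : Function.Injective σ := fun a b e => Tv_inj (α.injective (by rw [hσ, hσ, e]))
  have sur := Finite.surjective_of_injective inj
  have s0 : σ 0 = 0 := Tv_inj (by rw [← hσ, Tv_zero, map_one])
  have b : ∀ x y, Bf (σ x) (σ y) = Bf x y := fun x y => by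
    by_cases h0 : y = 0
    · simp [h0, s0]
    have e := (Tv_comm (v := σ y) (w := σ x)).symm.trans (Iff.trans (by
      rw [← hσ, ← hσ, ← map_mul, ← map_mul, α.injective.eq_iff]) (Tv_comm (v := y) (w := x)))
    rw [or_iff_left h0, or_iff_left (s0 ▸ inj.ne h0)] at e
    generalize Bf (σ x) (σ y) = a, Bf x y = b at e
    clear * - e; revert a b; decide
  have ad : ∀ x y, σ (x + y) = σ x + σ y := fun x y => Bf_ext fun z => by
    obtain ⟨z, rfl⟩ := sur z
    simp [b]
  let f := (AddMonoidHom.mk' σ ad).toZModLinearMap 2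
  have e : ∀ x, LinearMap.toMatrix' f *ᵥ x = σ x := fun x => LinearMap.toMatrix'_mulVec f x
  refine ⟨⟨_, mem_Sp.2 fun x y => by rw [e, e, b]⟩, fun x => eq_mul_inv_of_mul_eq (Sp_ext fun y => ?_)⟩
  simp only [Submonoid.coe_mul, ← mulVec_mulVec, e]
  exact Tv_inj (by rw [← Tv_conj, ← hσ, ← hσ, ← Tv_conj, map_mul, map_mul, map_inv])

end Cfsg.Agent.H3.HO
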