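import Cfsg.Agent.H3.HOa
import Cfsg.Agent.H3.HOb
import Cfsg.Agent.H2.E8H
import Cfsg.Agent.H8.Transfer

/-! Groups whose generalized Fitting subgroup is `Sp₆(2)` or `Ω⁺₈(2)`: the index. -/

set_option autoImplicit false
set_option linter.unusedSectionVars false
set_option linter.unusedSimpArgs false

namespace Cfsg.Agent.H3.HO

open Subgroup QuadraticMap Module H8 H2.E8H

variable {H S : Type*} [Group H] [Group S] (e : generalizedFittingSubgroup H ≃* S)

/-- the action on the model -/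
noncomputable def act : H →* MulAut S :=
  (MulAut.congr e).toMonoidHom.comp (@MulAut.conjNormal _ _ _ gfit_normal)

theorem act_apply (h : H) (x : S) : (e.symm (act e h x)).1 = h * e.symm x * h⁻¹ := by simp [act]

theorem act_coe (g x : S) : act e (e.symm g) x = g * x * g⁻¹ :=
  e.symm.injective (Subtype.ext (by simp [act_apply]))

theorem mem_of_inner [Finite H] (hZ : ∀ z : S, (∀ g, g * z = z * g) → z = 1) {h : H} {g : S}
    (hg : ∀ x, act e h x = g * x * g⁻¹) : h ∈ generalizedFittingSubgroup H := by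
  have h1 : (act e).ker = ⊥ := eq_bot_of_inf inferInstance (eq_bot_iff.2 fun x hx => by
    have := hZ (e ⟨x, hx.2⟩) fun g => (mul_inv_eq_iff_eq_mul.1 ((act_coe e _ g).symm.trans (by
      simpa using DFunLike.congr_fun (MonoidHom.mem_ker.1 hx.1) g))).symm
    simpa using this)
  rw [(MonoidHom.ker_eq_bot_iff _).1 h1 (MulEquiv.ext fun x => (hg x).trans (act_coe e g x).symm)]
  exact Subtype.prop _

theorem tau_eq {τ : H → ℤ} (hτ : ∀ a b, τ (a * b * a⁻¹) = τ b) {h : H} {x y : S} (k : IsConj (act e h x) y) :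
    τ (e.symm x) = τ (e.symm y) := by
  obtain ⟨g, rfl⟩ := isConj_iff.1 k
  simp [hτ, act_apply]

theorem cls_aux (α : MulAut S) {rep : ℕ → S} (cls : ∀ x : S, x ^ 2 ^ 2 = 1 → ∃ j < 12, IsConj x (rep j))
    (r0 : rep 0 = 1) (t1 : rep 1 ≠ 1) (t2 : rep 1 ^ 2 = 1) (r2 : ∀ j, j = 2 ∨ j = 3 → ∃ y, y ^ 2 = rep j)
    (r5 : ∀ j < 12, 5 ≤ j → rep j ^ 2 ≠ 1) (rs : ∀ j < 12, ¬ IsConj (rep 1) (rep j ^ 2)) :
    IsConj (α (rep 1)) (rep 1) ∨ IsConj (α (rep 1)) (rep 4) := by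
  have a2 : α (rep 1) ^ 2 = 1 := by rw [← map_pow, t2, map_one]
  obtain ⟨j, hj, c⟩ := cls (α (rep 1)) (by rw [pow_two 2, pow_mul, a2, one_pow])
  have j2 : rep j ^ 2 = 1 := isConj_one_right.1 (a2 ▸ c.pow 2)
  obtain rfl | rfl | k | rfl : j = 0 ∨ j = 1 ∨ (j = 2 ∨ j = 3) ∨ j = 4 := by
    have : ¬ 5 ≤ j := fun k => r5 j hj k j2
    omega
  · exact (t1 (by simpa [r0] using c)).elim
  · exact .inl c
  · obtain ⟨y, hy⟩ := r2 j k
    obtain ⟨i, hi, c'⟩ := cls (α.symm y) (by rw [← map_pow, pow_two 2, pow_mul, hy, j2, map_one])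
    have k : IsConj (α.symm (α (rep 1))) (α.symm (rep j)) := α.symm.toMonoidHom.map_isConj c
    rw [α.symm_apply_apply, ← hy, map_pow] at k
    exact (rs i hi (k.trans (c'.pow 2))).elim
  · exact .inr c

theorem sp_aux [Finite H] {l : Type} [Fintype l] [DecidableEq l] (e : generalizedFittingSubgroup H ≃* Sp l)
    {τ : H → ℤ} (hτ : ∀ a b, τ (a * b * a⁻¹) = τ b) {rep : ℕ → Sp l}
    (cls : ∀ x : Sp l, x ^ 2 ^ 2 = 1 → ∃ j < 12, IsConj x (rep j)) (r0 : rep 0 = 1) {v : Vs l} (hv : v ≠ 0)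
    (r1 : rep 1 = Tv v) (r2 : ∀ j, j = 2 ∨ j = 3 → ∃ y, y ^ 2 = rep j) (r5 : ∀ j < 12, 5 ≤ j → rep j ^ 2 ≠ 1)
    (rs : ∀ j < 12, ¬ IsConj (rep 1) (rep j ^ 2)) (h14 : τ (e.symm (rep 1)) ≠ τ (e.symm (rep 4))) :
    generalizedFittingSubgroup H = ⊤ := eq_top_iff.2 fun h _ => by
  obtain ⟨g, hg⟩ := sp_inner (act e h) hv (r1 ▸ ((cls_aux (act e h) cls r0 (fun k => hv (Tv_inj (by
    rw [← r1, k, Tv_zero]))) (by
      rw [r1, pow_two]
      exact Sp_ext fun x => by simp [← Matrix.mulVec_mulVec, Tv_apply, Bf_self, add_assoc, ZModModule.add_self])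
    r2 r5 rs).resolve_right fun c => h14 (tau_eq e hτ c)).symm)
  exact mem_of_inner e (fun _ => sp_center) hg

variable {V : Type*} [AddCommGroup V] [Module (ZMod 2) V] [FiniteDimensional (ZMod 2) V] {Q : QuadraticForm (ZMod 2) V}

theorem om_aux [Finite H] (hN : ND Q) (h8 : finrank (ZMod 2) V = 8) {ι : Type*} (b : Basis ι (ZMod 2) V)
    (hb : ∀ i, Q (b i) = 0) (e : generalizedFittingSubgroup H ≃* Om Q)
    {τ : H → ℤ} (hτ : ∀ a b, τ (a * b * a⁻¹) = τ b) {rep : ℕ → Om Q}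
    (cls : ∀ x : Om Q, x ^ 2 ^ 3 = 1 → ∃ j < 14, IsConj x (rep j)) (r0 : rep 0 = 1) {s s' : V}
    (r1 : Sv Q 1 (rep 1) s) (r4 : Sv Q 0 (rep 4) s') (r2 : MaxTS Q (LinearMap.range ((rep 2).1.toLinearMap - 1)))
    (r3 : MaxTS Q (LinearMap.range ((rep 3).1.toLinearMap - 1))) (r6 : ∀ j < 14, 6 ≤ j → rep j ^ 2 ≠ 1)
    (r5 : ∀ j < 6, rep j ^ 2 = 1) (r12 : ∀ j < 12, rep j ^ 4 = 1) (r13 : ∀ j, j = 12 ∨ j = 13 → ∃ s, Sv Q 0 (rep j ^ 4).1 s)
    (h5 : ∀ j, j = 1 ∨ j = 2 ∨ j = 3 → τ (e.symm (rep j)) ≠ τ (e.symm (rep 5))) :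
    (generalizedFittingSubgroup H).index ∣ 6 := by
  classical
  have sc : ∀ {c} {t t' : Om Q} {s s'}, Sv Q c t s → Sv Q c t' s' → IsConj t t' := fun k k' => by
    obtain ⟨x, x1, x2⟩ := k.isConj hN h8 k'
    exact isConj_iff.2 ⟨⟨x, x1⟩, Subtype.ext x2⟩
  have rk : ∀ {t t' : Om Q}, IsConj t t' → finrank (ZMod 2) (LinearMap.range (t.1.toLinearMap - 1)) =
      finrank (ZMod 2) (LinearMap.range (t'.1.toLinearMap - 1)) := fun {t t'} k => by
    obtain ⟨g, rfl⟩ := isConj_iff.1 k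
    rw [show (g * t * g⁻¹).1.toLinearMap - 1 = g.1.toLinearMap ∘ₗ (t.1.toLinearMap - 1) ∘ₗ g⁻¹.1.toLinearMap from
      LinearMap.ext fun v => by simp, LinearMap.range_comp, LinearEquiv.finrank_map_eq,
      LinearMap.range_comp_of_range_eq_top _ (LinearEquiv.range _)]
  have rk4 : finrank (ZMod 2) (LinearMap.range ((rep 4).1.toLinearMap - 1)) ≤ 2 := by
    obtain ⟨h1, -, u, h2, -, -, k⟩ := r4
    refine (Submodule.finrank_mono ?_).trans (finrank_sp_le [s', u])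
    rintro _ ⟨y, rfl⟩
    rw [k]
    exact siegel_sub_mem_of (mem_sp_of_mem (by simp)) (mem_sp_of_mem (by simp)) y
  have n1 : ∀ {c} {t : Om Q} {s}, Sv Q c t s → t ≠ 1 := by
    rintro c t s ⟨h1, h0, u, h2, h3, -, k⟩ rfl
    obtain ⟨f, -, hf⟩ := hN.ndOn_top.exists_pol_eq_one trivial h0
    have := LinearEquiv.congr_fun k f
    rw [siegel_apply h1 h2, pol_comm Q f, hf, one_smul, add_sub_assoc] at this
    exact h3 (mem_sp_one.2 ⟨_, sub_eq_zero.1 (left_eq_add.1 this)⟩)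
  have a4 : ∀ α : MulAut (Om Q), IsConj (rep 4) (α (rep 4)) := fun α => by
    obtain ⟨_, k⟩ := r13 12 (.inl rfl)
    obtain ⟨j, hj, c⟩ := cls (α (rep 12)) (by
      rw [← map_pow, show 2 ^ 3 = 4 * 2 by rfl, pow_mul, show (rep 12 ^ 4) ^ 2 = 1 from isConj_one_left.1 (r5 4 (by simp) ▸ (sc k r4).pow 2), map_one])
    have c' := (α.toMonoidHom.map_isConj (sc r4 k)).trans (by simpa using c.pow 4)
    by_cases h : j < 12
    · rw [r12 j h, isConj_one_left] at c'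
      exact (n1 r4 (by simpa using c')).elim
    · exact (sc r4 (r13 j (by omega)).choose_spec).trans c'.symm
  have n4 : ∀ j, j = 1 ∨ j = 2 ∨ j = 3 → ¬ IsConj (rep j) (rep 4) ∧ rep j ≠ 1 := by
    rintro _ (rfl | rfl | rfl)
    · refine ⟨fun k => ?_, n1 r1⟩
      obtain ⟨g, k⟩ := isConj_iff.1 k
      have := r1.conj (Om_le_OG g.2)
      exact this.2.1 (eq_of_pol hN fun y => by simpa using (this.phi y).symm.trans ((k ▸ r4 : Sv Q 0 (g * _ * g⁻¹).1 _).phi y))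
    · exact ⟨fun k => by have := rk k; have := r2.2; omega, fun k => by
      have := r2.2; rw [k, show (1 : Om Q).1.toLinearMap - 1 = 0 from sub_self _, LinearMap.range_zero] at this; simp [h8] at this⟩
    · exact ⟨fun k => by have := rk k; have := r3.2; omega, fun k => by
      have := r3.2; rw [k, show (1 : Om Q).1.toLinearMap - 1 = 0 from sub_self _, LinearMap.range_zero] at this; simp [h8] at this⟩
  let X := {c : ConjClasses (Om Q) // ∃ j, (j = 1 ∨ j = 2 ∨ j = 3) ∧ c = ConjClasses.mk (rep j)}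
  have hX : ∀ (h : H) (c : X), ∃ j, (j = 1 ∨ j = 2 ∨ j = 3) ∧
      ConjClasses.map (act e h).toMonoidHom c.1 = ConjClasses.mk (rep j) := by
    rintro h ⟨_, i, hi, rfl⟩
    have a2 : act e h (rep i) ^ 2 = 1 := by rw [← map_pow, r5 i (by omega), map_one]
    obtain ⟨j, hj, c⟩ := cls (act e h (rep i)) (by rw [show 2 ^ 3 = 2 * 4 by rfl, pow_mul, a2, one_pow])
    refine ⟨j, ?_, ConjClasses.mk_eq_mk_iff_isConj.2 c⟩
    obtain rfl | k | rfl | rfl : j = 0 ∨ (j = 1 ∨ j = 2 ∨ j = 3) ∨ j = 4 ∨ j = 5 := by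
      have : ¬ 6 ≤ j := fun k => r6 j hj k (isConj_one_right.1 (a2 ▸ c.pow 2))
      omega
    · exact ((n4 i hi).2 (by simpa [r0] using c)).elim
    · exact k
    · exact ((n4 i hi).1 (by simpa using (act e h).symm.toMonoidHom.map_isConj (c.trans (a4 (act e h))))).elim
    · exact (h5 i hi (tau_eq e hτ c)).elim
  let _ : MulAction H X :=
    { smul h c := ⟨_, hX h c⟩
      one_smul := by
        rintro ⟨_, i, hi, rfl⟩
        exact Subtype.ext (congrArg ConjClasses.mk (by simp))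
      mul_smul := by
        rintro a b ⟨_, i, hi, rfl⟩
        exact Subtype.ext (congrArg ConjClasses.mk (by simp)) }
  have hK : (MulAction.toPermHom H X).ker = generalizedFittingSubgroup H := by
    refine le_antisymm (fun h hh => ?_) fun h hh => Equiv.ext ?_
    · have k : ∀ j, j = 1 ∨ j = 2 ∨ j = 3 → IsConj (rep j) (act e h (rep j)) := fun j hj =>
        ConjClasses.mk_eq_mk_iff_isConj.1 (congrArg Subtype.val (Equiv.congr_fun hh ⟨_, j, hj, rfl⟩)).symm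
      obtain ⟨g, g1, g2⟩ := (gd_of hN h8 (α := act e h) fun c => by
        rcases z2 c with rfl | rfl
        exacts [⟨_, _, r4, a4 _⟩, ⟨_, _, r1, k 1 (by simp)⟩]).main hN h8 b hb
      obtain ⟨x, hx⟩ := isConj_iff.1 (k 2 (by simp))
      refine mem_of_inner e (fun z hz => ?_) (g := ⟨g, mem_Om hN h8 g1 x.2
        ((g2 _).symm.trans (congrArg Subtype.val hx).symm) r2⟩) fun x => Subtype.ext (g2 x)
      refine Subtype.ext (LinearEquiv.toLinearMap_injective (b.ext fun i => ?_))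
      obtain ⟨u, u1, u2⟩ := exists_ns hN h8 [b i] (by simp)
      have k := sv_of hN h8 (hb i) (b.ne_zero i) (u2 _ (by simp)) u1
      exact (k.conj (Om_le_OG z.2)).uniq hN (by
        rwa [mul_inv_eq_iff_eq_mul.2 (show z.1 * siegel Q (b i) u = _ * z.1 from
          (congrArg Subtype.val (hz ⟨_, siegel_mem_Om hN (by omega) _ _⟩)).symm)])
    · rintro ⟨_, i, hi, rfl⟩
      exact Subtype.ext (ConjClasses.mk_eq_mk_iff_isConj.2 (isConj_iff.2 ⟨e ⟨h, hh⟩, by
        simpa using (act_coe e (e ⟨h, hh⟩) (rep i)).symm⟩).symm)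
  have sur : Function.Surjective fun j : Fin 3 => (⟨_, j + 1, by omega, rfl⟩ : X) := by
    rintro ⟨_, _, rfl | rfl | rfl, rfl⟩
    exacts [⟨0, rfl⟩, ⟨1, rfl⟩, ⟨2, rfl⟩]
  have := Finite.of_surjective _ sur
  rw [← hK, index_ker]
  exact (card_subgroup_dvd_card _).trans (Nat.card_perm.dvd.trans (Nat.factorial_dvd_factorial
    ((Nat.card_le_card_of_surjective _ sur).trans (Nat.card_fin 3).le)))

end Cfsg.Agent.H3.HO
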