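import Cfsg.Agent.H3.HOc
import Cfsg.Agent.Form.Adapters

/-! The orthogonal group in dimension eight over the field with two elements: matrices. -/

set_option autoImplicit false
set_option linter.unusedSectionVars false
set_option linter.unusedSimpArgs false

namespace Cfsg.Agent.H3.HO

open Subgroup QuadraticMap Module H8 Matrix

/-- the quadratic form -/
def Q8 : QuadraticForm (ZMod 2) (Vs (Fin 4)) :=
  QuadraticMap.ofPolar (quadFormPlus 4 (ZMod 2)) (fun a x => by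
    rw [(Form.isNondeg_quadFormPlus 4 (ZMod 2)).smul, smul_eq_mul, pow_two])
    (Form.isNondeg_quadFormPlus 4 (ZMod 2)).polar_bilinear.add_left
    fun a x y => by rw [(Form.isNondeg_quadFormPlus 4 (ZMod 2)).polar_bilinear.smul_left, smul_eq_mul]

theorem pol8 (x y : Vs (Fin 4)) : polar Q8 x y = Bf x y := (Form.polar_quadFormPlus 4 x y).trans (Bf_apply x y).symm
theorem nd8 : ND Q8 := fun v h => Bf_ext fun z => by rw [Bf_comm, ← pol8, h, map_zero]
theorem dim8 : finrank (ZMod 2) (Vs (Fin 4)) = 8 := by simp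
theorem Bf_single (j : Fin 4 ⊕ Fin 4) (s : Vs (Fin 4)) : Bf (Pi.single j 1) s = s j.swap := by
  rcases j with j | j <;> simp [Bf_apply, Pi.single_apply]

/-- the isomorphism with the group of linear maps -/
noncomputable def ψ : Omega (ZMod 2) (quadFormPlus 4 (ZMod 2)) ≃* Om Q8 :=
  (Subgroup.equivMapOfInjective _ _ (Subgroup.subtype_injective _)).trans ((MulEquiv.subgroupCongr (omegaGL_eq Q8)).trans
    ((toLE.subgroupMap _).trans (MulEquiv.subgroupCongr (Subgroup.map_comap_eq_self_of_surjective toLE.surjective _))))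

theorem ψ_apply (x : Omega (ZMod 2) (quadFormPlus 4 (ZMod 2))) (v : Vs (Fin 4)) : (ψ x).1 v = x.1.1.val *ᵥ v :=
  toLE_apply _ v

theorem sv_mat {x : Omega (ZMod 2) (quadFormPlus 4 (ZMod 2))} {A} (hx : x.1.1.val = A) {c : ZMod 2} (s u : Vs (Fin 4))
    (h : quadFormPlus 4 (ZMod 2) s = 0 ∧ s ≠ 0 ∧ quadFormPlus 4 (ZMod 2) (s + u) = c ∧ u ≠ 0 ∧ u ≠ s ∧
      quadFormPlus 4 (ZMod 2) u = c ∧ ∀ i j, A i j = (if j = i then 1 else 0) + s j.swap * u i - (u j.swap + c * s j.swap) * s i) :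
    Sv Q8 c (ψ x) s := by
  obtain ⟨h1, h2, h3, h4, h5, h6, h7⟩ := h
  have h8 : polar Q8 s u = 0 := by
    rw [polar, show Q8 _ = _ from h1, show Q8 _ = _ from h3, show Q8 _ = _ from h6]; simp
  refine ⟨h1, h2, u, h8, fun e => ?_, h6, LinearEquiv.toLinearMap_injective ((Pi.basisFun _ _).ext fun j => ?_)⟩
  · obtain ⟨a, rfl⟩ := mem_sp_one.1 e
    rcases z2 a with rfl | rfl <;> simp at h4 h5
  · ext i
    simp [ψ_apply, hx, siegel_apply h1 h8, pol8, Bf_single, h7, show Q8 u = c from h6, Pi.single_apply, eq_comm]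

theorem maxts_mat {x : Omega (ZMod 2) (quadFormPlus 4 (ZMod 2))} {A} (hx : x.1.1.val = A) (P P' : Matrix _ _ (ZMod 2))
    (h : (A - 1) * P + P' * (A - 1) = 1) (hq : ∀ y, quadFormPlus 4 (ZMod 2) ((A - 1) *ᵥ y) = 0) :
    MaxTS Q8 (LinearMap.range ((ψ x).1.toLinearMap - 1)) := by
  have e : ∀ y, ((ψ x).1.toLinearMap - 1 : End _ _) y = (A - 1) *ᵥ y := fun y => by simp [ψ_apply, hx, sub_mulVec]
  generalize ((ψ x).1.toLinearMap - 1 : End _ _) = N at e
  have h1 : ∀ v ∈ LinearMap.range N, Q8 v = 0 := by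
    rintro _ ⟨y, rfl⟩
    exact e y ▸ hq y
  have h2 := nd8.ndOn_top.two_mul_finrank_le nd8 le_top (le_perp_of_sing h1)
  have h3 := LinearMap.finrank_range_add_finrank_ker N
  have h4 := Submodule.finrank_mono (show LinearMap.ker N ≤ LinearMap.range N from fun y hy => ⟨P *ᵥ y, by
    simpa [add_mulVec, ← mulVec_mulVec, ← e, show N y = 0 from hy] using congrArg (· *ᵥ y) h⟩)
  rw [finrank_top] at h2
  exact ⟨h1, by omega⟩

theorem not_conj_tv {l : Type} [Fintype l] [DecidableEq l] {v : Vs l} (hv : v ≠ 0) {g : Sp l} {A} (hg : g.1 = A)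
    (h : A = 1 ∨ ∃ i j, (A - 1).col i ≠ 0 ∧ (A - 1).col j ≠ 0 ∧ (A - 1).col i ≠ (A - 1).col j) : ¬ IsConj (Tv v) g := fun k => by
  obtain ⟨y, rfl⟩ := isConj_iff.1 k
  rcases h with rfl | ⟨i, j, h1, h2, h3⟩
  · exact hv (Tv_inj ((conj_eq_one_iff.1 (Subtype.ext hg)).trans Tv_zero.symm))
  have e : ∀ i, (A - 1).col i = Bf (Pi.single i 1) (y.1 *ᵥ v) • (y.1 *ᵥ v) := fun i => by
    rw [← mulVec_single_one, ← hg, Tv_conj, sub_mulVec, Tv_apply, one_mulVec, add_sub_cancel_left]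
  rw [e] at h1 h2
  rw [e, e] at h3
  rcases z2 (Bf (Pi.single i 1) (y.1 *ᵥ v)) with a | a <;> rcases z2 (Bf (Pi.single j 1) (y.1 *ᵥ v)) with b | b <;>
    simp [a, b] at h1 h2 h3

end Cfsg.Agent.H3.HO
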