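import Cfsg.Agent.H3.HOd
import Cfsg.Agent.H4.BmO
import Cfsg.Agent.H4.BmS

/-! Outer automorphisms of `Sp₆(2)` and `Ω₈⁺(2)` that respect a class function. -/

set_option autoImplicit false
set_option maxRecDepth 100000

namespace Cfsg.Agent.H3.HO

open Subgroup QuadraticMap Module H8 Matrix H4.Bm H4.T8
open H7.Bit (toV)

theorem sq_φ {G : Type*} [Group G] {mu : ℕ → ℕ → ℕ} {I : ℕ} {vb : ℕ → Bool} {Val : ℕ → Prop} {φ : ℕ → G}
    (M : Mdl mu I vb Val φ) {a b : ℕ} (ha : Val a) (h : mu a a = b) : φ a ^ 2 = φ b := by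
  rw [← h, M.φ_mu _ _ ha ha, pow_two]

open S in
theorem sp {H : Type*} [Group H] [Finite H] (e : generalizedFittingSubgroup H ≃* Sp6) (τ : H → ℤ)
    (hτ : ∀ a b, τ (a * b * a⁻¹) = τ b) (h14 : τ (e.symm (φ (rep 1))) ≠ τ (e.symm (φ (rep 4)))) :
    generalizedFittingSubgroup H = ⊤ := by
  have hv : toV (ZMod 2) en 1 ≠ 0 := by decide +kernel
  have r1 : φ (rep 1) = Tv (toV (ZMod 2) en 1) := mat_inj ((mat_φ (val_rep 1)).trans (by
    change _ = (1 : Matrix ι ι (ZMod 2)) + vecMulVec _ _; decide +kernel))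
  have h2 := fun j => sq_φ M (val_rep j) rfl
  have h3 := fun j => M.val_mu _ _ (val_rep j) (val_rep j)
  refine sp_aux e hτ (rep := fun j => φ (rep j)) (fun _ => cls) M.φ_e hv r1 ?_ (fun j h1 h5 h => ?_) (fun j hj => ?_) h14
  · rintro _ (rfl | rfl)
    exacts [⟨_, sq_φ M (val_rep 5) (by decide +kernel)⟩, ⟨_, sq_φ M (val_rep 6) (by decide +kernel)⟩]
  · exact absurd (inj (mu_lt ..) (by decide) (h3 j) M.val_e ((h2 j).symm.trans (h.trans M.φ_e.symm)))
      (by clear h; revert j; decide +kernel)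
  · rw [r1, h2]
    exact not_conj_tv hv (mat_φ (h3 j)) (by revert j; decide +kernel)

open O hiding Q8 in
theorem om {H : Type*} [Group H] [Finite H] (e : generalizedFittingSubgroup H ≃* Om8) (τ : H → ℤ)
    (hτ : ∀ a b, τ (a * b * a⁻¹) = τ b) (h15 : τ (e.symm (φ (rep 1))) ≠ τ (e.symm (φ (rep 5))))
    (h25 : τ (e.symm (φ (rep 2))) ≠ τ (e.symm (φ (rep 5)))) (h35 : τ (e.symm (φ (rep 3))) ≠ τ (e.symm (φ (rep 5)))) :
    (generalizedFittingSubgroup H).index ∣ 6 := by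
  have h2 := fun j => sq_φ M (val_rep j) rfl
  have h3 := fun j => M.val_mu _ _ (val_rep j) (val_rep j)
  have h4 : ∀ j b, mu (mu (rep j) (rep j)) (mu (rep j) (rep j)) = b → ψ (φ (rep j)) ^ 4 = ψ (φ b) := fun j b h => by
    rw [← sq_φ M (h3 j) h, ← h2, ← pow_mul, map_pow]
  have r4 : Sv Q8 0 (ψ (φ (rep 4))) _ := sv_mat (mat_φ (val_rep 4)) (toV _ en 1) (toV _ en 2) (by
    refine ⟨?_, ?_, ?_, ?_, ?_, ?_, Matrix.ext_iff.2 (?_ : _ = Matrix.of fun i j => _)⟩ <;> decide +kernel)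
  refine om_aux nd8 dim8 (Pi.basisFun _ _) (fun i => ?_) (e.trans ψ) hτ (rep := fun j => ψ (φ (rep j))) (fun x h => ?_)
    ((congrArg ψ M.φ_e).trans (map_one ψ)) (sv_mat (mat_φ (val_rep 1)) (toV _ en 1) (toV _ en 68) (by
      refine ⟨?_, ?_, ?_, ?_, ?_, ?_, Matrix.ext_iff.2 (?_ : _ = Matrix.of fun i j => _)⟩ <;> decide +kernel)) r4
    (maxts_mat (mat_φ (val_rep 2)) (T en 2310346608841066500) (T en 2310346608841066500) (by decide +kernel) fun y => ?_)
    (maxts_mat (mat_φ (val_rep 3)) (T en 2305843009214744640) (T en 2305843009214744640) (by decide +kernel) fun y => ?_)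
    (fun j h1 h6 h => ?_) (fun j hj => ?_) (fun j hj => ?_) ?_ ?_
  · rw [Pi.basisFun_apply]
    change quadFormPlus 4 (ZMod 2) _ = 0
    revert i; decide
  · obtain ⟨x, rfl⟩ := ψ.surjective x
    exact (cls (ψ.injective ((map_pow ψ ..).trans (h.trans (map_one ψ).symm)))).imp fun j h => ⟨h.1, ψ.toMonoidHom.map_isConj h.2⟩
  · obtain ⟨y, hy, rfl⟩ := exists_vec en y
    rw [sub_mulVec, one_mulVec, T_app]
    revert y; decide +kernel
  · obtain ⟨y, hy, rfl⟩ := exists_vec en y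
    rw [sub_mulVec, one_mulVec, T_app]
    revert y; decide +kernel
  · rw [← map_pow, h2, ← map_one ψ, ← M.φ_e] at h
    exact absurd (inj (mu_lt ..) (by decide) (h3 j) M.val_e (ψ.injective h)) (by clear h; revert j; decide +kernel)
  · rw [← map_pow, sq_φ M (val_rep j) (show _ = I by revert j; decide +kernel), M.φ_e, map_one]
  · rw [h4 j I (by revert j; decide +kernel), M.φ_e, map_one]
  · rintro _ (rfl | rfl) <;> exact ⟨_, by rw [h4 _ (rep 4) (by decide +kernel)]; exact r4⟩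
  · rintro _ (rfl | rfl | rfl) <;> simpa

end Cfsg.Agent.H3.HO
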