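import Mathlib

/-! Complements in subgroup lattices. -/

set_option autoImplicit false

namespace Cfsg.Agent.H3.LatticeCompl

variable {G : Type*} [Group G] [Finite G]

theorem exists_compl (T X M : Subgroup G)
    (hTX : T ≤ X)
    (hint : ∀ Y : Subgroup G, T ≤ Y → Y ≤ X → ∃ C : Subgroup G, T ≤ C ∧ C ≤ X ∧ Y ⊔ C = X ∧ Y ⊓ C = T)
    (huniq : ∀ M' : Subgroup G, IsCoatom M' → X ≤ M' → M' = M)
    (H : Subgroup G) (hH : ¬ H ≤ M) (hHT : H ⊓ T = ⊥) :
    ∃ C : Subgroup G, H ⊔ C = ⊤ ∧ H ⊓ C = ⊥ := by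
  obtain ⟨C, hTC, hCX, h1, h2⟩ := hint ((H ⊓ X) ⊔ T) le_sup_right (sup_le inf_le_right hTX)
  refine ⟨C, ?_, ?_⟩
  · by_contra hne
    obtain ⟨M', hM', hle⟩ := (eq_top_or_exists_le_coatom (H ⊔ C)).resolve_left hne
    have hX : X ≤ H ⊔ C := by
      rw [← h1]
      exact sup_le (sup_le (inf_le_left.trans le_sup_left) (hTC.trans le_sup_right)) le_sup_right
    have := huniq M' hM' (hX.trans hle)
    exact hH (le_sup_left.trans (this ▸ hle))
  · rw [eq_bot_iff, ← hHT]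
    refine le_inf inf_le_left ?_
    rw [← h2]
    exact le_inf ((le_inf inf_le_left (inf_le_right.trans hCX)).trans le_sup_left) inf_le_right

omit [Finite G] in
/-- Transport of a lattice complement along an automorphism. -/
theorem exists_compl_of_map (φ : G ≃* G) (H : Subgroup G)
    (h : ∃ C : Subgroup G, H.map φ.toMonoidHom ⊔ C = ⊤ ∧ H.map φ.toMonoidHom ⊓ C = ⊥) :
    ∃ C : Subgroup G, H ⊔ C = ⊤ ∧ H ⊓ C = ⊥ := by
  obtain ⟨C, h1, h2⟩ := h
  have e : φ.mapSubgroup H = H.map φ.toMonoidHom := rfl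
  refine ⟨φ.mapSubgroup.symm C, ?_, ?_⟩
  · apply φ.mapSubgroup.injective
    rw [map_sup, OrderIso.apply_symm_apply, e, h1, map_top]
  · apply φ.mapSubgroup.injective
    rw [map_inf, OrderIso.apply_symm_apply, e, h2, map_bot]

end Cfsg.Agent.H3.LatticeCompl
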