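import Mathlib
import Cfsg.Agent.H3.PowSimple

/-! Automorphisms and subdirect products of powers of a non-abelian simple group (Scott's lemma). -/

set_option autoImplicit false

namespace Cfsg.Agent.H3.Scott

variable {T : Type*} [Group T] [IsSimpleGroup T] {ι : Type*}

theorem commutator_eq_top (hT : ¬ IsMulCommutative T) : ⁅(⊤ : Subgroup T), (⊤ : Subgroup T)⁆ = ⊤ := by
  refine (Subgroup.Normal.eq_bot_or_eq_top inferInstance).resolve_left fun h => ?_
  have h1 : commutator T = ⊥ := h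
  rw [commutator_eq_bot_iff_center_eq_top, PowSimple.center_eq_bot hT] at h1
  exact bot_ne_top h1

theorem bijective_of_surjective (θ : T →* T) (h : Function.Surjective θ) :
    Function.Bijective θ := by
  refine ⟨(MonoidHom.ker_eq_bot_iff θ).mp ?_, h⟩
  refine (Subgroup.Normal.eq_bot_or_eq_top inferInstance).resolve_right fun hk => ?_
  obtain ⟨t, ht⟩ := exists_ne (1 : T)
  obtain ⟨s, rfl⟩ := h t
  have : s ∈ θ.ker := by rw [hk]; trivial
  exact ht this

theorem exists_aut_of_surjective [Fintype ι] [DecidableEq ι] (hT : ¬ IsMulCommutative T)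
    (ψ : (ι → T) →* T) (hψ : Function.Surjective ψ) :
    ∃ (i : ι) (θ : T ≃* T), ∀ x, ψ x = θ (x i) := by
  let f : ι → (T →* T) := fun i => ψ.comp (MonoidHom.mulSingle (fun _ : ι => T) i)
  have hn : ∀ i, (f i).range.Normal := fun i => ⟨by
    rintro _ ⟨s, rfl⟩ t
    obtain ⟨y, rfl⟩ := hψ t
    refine ⟨y i * s * (y i)⁻¹, ?_⟩
    change ψ (Pi.mulSingle i _) = ψ y * ψ (Pi.mulSingle i s) * (ψ y)⁻¹
    rw [← map_mul, ← map_inv, ← map_mul]
    congr 1
    ext j
    by_cases hj : j = i
    · subst hj; simp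
    · simp [hj]⟩
  obtain ⟨i, hi⟩ : ∃ i, (f i).range = ⊤ := by
    by_contra h
    push Not at h
    obtain ⟨t, ht⟩ := exists_ne (1 : T)
    obtain ⟨x, rfl⟩ := hψ t
    refine ht (PowSimple.mem_of_mulSingle_mem ψ.ker x (fun i => ?_))
    have h1 := (hn i).eq_bot_or_eq_top.resolve_right (h i)
    have : f i (x i) ∈ (f i).range := ⟨_, rfl⟩
    rwa [h1] at this
  have hsurj : Function.Surjective (f i) := MonoidHom.range_eq_top.mp hi
  have hoth : ∀ j, j ≠ i → ∀ s, ψ (Pi.mulSingle j s) = 1 := by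
    intro j hj s
    have : ψ (Pi.mulSingle j s) ∈ Subgroup.center T := by
      rw [Subgroup.mem_center_iff]
      intro t
      obtain ⟨u, rfl⟩ := hsurj t
      change ψ (Pi.mulSingle i u) * _ = _ * ψ (Pi.mulSingle i u)
      rw [← map_mul, ← map_mul, (Pi.mulSingle_commute (f := fun _ : ι => T) (fun e => hj e.symm) u s).eq]
    rwa [PowSimple.center_eq_bot hT] at this
  refine ⟨i, MulEquiv.ofBijective (f i) (bijective_of_surjective _ hsurj), fun x => ?_⟩
  change ψ x = ψ (Pi.mulSingle i (x i))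
  rw [← mul_inv_eq_one, ← map_inv, ← map_mul]
  refine PowSimple.mem_of_mulSingle_mem ψ.ker _ (fun j => ?_)
  by_cases hj : j = i
  · subst hj; simp
  · exact hoth j hj _

theorem exists_perm [Fintype ι] [DecidableEq ι] (hT : ¬ IsMulCommutative T)
    (φ : (ι → T) ≃* (ι → T)) :
    ∃ (τ : ι ≃ ι) (θ : ι → T ≃* T), ∀ x j, φ x j = θ j (x (τ j)) := by
  have h : ∀ j, ∃ (i : ι) (θ : T ≃* T), ∀ x, φ x j = θ (x i) := fun j =>
    exists_aut_of_surjective hT ((Pi.evalMonoidHom (fun _ : ι => T) j).comp φ.toMonoidHom)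
      (fun t => ⟨φ.symm (fun _ => t), by simp⟩)
  choose τ θ h using h
  have hτ : Function.Injective τ := by
    intro j j' e
    by_contra hne
    obtain ⟨t, ht⟩ := exists_ne (1 : T)
    have h1 := h j (φ.symm (Pi.mulSingle j t))
    have h2 := h j' (φ.symm (Pi.mulSingle j t))
    rw [MulEquiv.apply_symm_apply] at h1 h2
    rw [Pi.mulSingle_eq_same] at h1
    rw [Pi.mulSingle_eq_of_ne (Ne.symm hne), eq_comm, map_eq_one_iff _ (θ j').injective, ← e] at h2
    rw [h2, map_one] at h1
    exact ht h1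
  exact ⟨Equiv.ofBijective τ (Finite.injective_iff_bijective.mp hτ), θ, fun x j => h j x⟩

theorem iff_of_imp {D : Type*} [Group D] (f g : D →* T) (hf : Function.Surjective f)
    (hg : Function.Surjective g) (h : f.ker ≤ g.ker) :
    ∃ θ : T ≃* T, ∀ x, θ (f x) = g x := by
  let θ : T →* T := f.liftOfSurjective hf ⟨g, h⟩
  have hθ : ∀ x, θ (f x) = g x := fun x => f.liftOfRightInverse_comp_apply _ _ ⟨g, h⟩ x
  have : Function.Surjective θ := fun t => by
    obtain ⟨x, rfl⟩ := hg t
    exact ⟨f x, hθ x⟩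
  exact ⟨MulEquiv.ofBijective θ (bijective_of_surjective θ this), hθ⟩

theorem map_iInf_ker (hT : ¬ IsMulCommutative T) {D : Type*} [Group D] (f : D →* T)
    (hf : Function.Surjective f) (g : ι → (D →* T)) (hg : ∀ i, Function.Surjective (g i))
    (S : Finset ι) (hS : ∀ i ∈ S, (g i).ker ≠ f.ker) (t : T) :
    ∃ x, f x = t ∧ ∀ i ∈ S, g i x = 1 := by
  classical
  have key : (⨅ i ∈ S, (g i).ker).map f = ⊤ := by
    induction S using Finset.induction_on with
    | empty => simpa using Subgroup.map_top_of_surjective f hf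
    | insert a S ha ih =>
      rw [Finset.iInf_insert, eq_top_iff, ← commutator_eq_top hT]
      have h1 : (g a).ker.map f = ⊤ := by
        refine ((Subgroup.Normal.map inferInstance f hf).eq_bot_or_eq_top).resolve_left fun h => ?_
        rw [Subgroup.map_eq_bot_iff] at h
        obtain ⟨θ, hθ⟩ := iff_of_imp (g a) f (hg a) hf h
        refine hS a (Finset.mem_insert_self _ _) (le_antisymm h fun x hx => ?_)
        rw [MonoidHom.mem_ker] at hx ⊢
        rwa [← hθ, map_eq_one_iff _ θ.injective] at hx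
      have h2 := ih (fun i hi => hS i (Finset.mem_insert_of_mem hi))
      have : (⨅ i ∈ S, (g i).ker).Normal := Subgroup.normal_iInf_normal fun i =>
        Subgroup.normal_iInf_normal fun _ => inferInstance
      refine le_trans (Subgroup.commutator_mono h1.ge h2.ge) ?_
      rw [← Subgroup.map_commutator]
      exact Subgroup.map_mono (Subgroup.commutator_le_inf _ _)
  have : t ∈ (⨅ i ∈ S, (g i).ker).map f := by rw [key]; trivial
  obtain ⟨x, hx, rfl⟩ := this
  refine ⟨x, rfl, fun i hi => ?_⟩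
  simp only [SetLike.mem_coe, Subgroup.mem_iInf] at hx
  exact hx i hi

/-- Scott's lemma. -/
theorem scott [Fintype ι] [DecidableEq ι] (hT : ¬ IsMulCommutative T) (D : Subgroup (ι → T))
    (hD : ∀ i t, ∃ x ∈ D, x i = t) :
    ∃ (c : ι → ι) (θ : ι → T ≃* T), (∀ i j, c i = c j ↔ ∀ x ∈ D, x i = 1 ↔ x j = 1) ∧
      ∀ x, x ∈ D ↔ ∀ i j, c i = c j → θ i (x i) = θ j (x j) := by
  classical
  let p : ι → (D →* T) := fun i => (Pi.evalMonoidHom (fun _ : ι => T) i).comp D.subtype
  have hp : ∀ i, Function.Surjective (p i) := fun i t => by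
    obtain ⟨x, hx, h⟩ := hD i t
    exact ⟨⟨x, hx⟩, h⟩
  let s : Setoid ι := Setoid.ker (fun i => (p i).ker)
  let c : ι → ι := fun i => (Quotient.mk s i).out
  have hc : ∀ i j, c i = c j ↔ (p i).ker = (p j).ker := fun i j => by
    simp only [c, Quotient.out_inj, Quotient.eq]
    rfl
  have hcc : ∀ i, c (c i) = c i := fun i => by simp [c]
  have hθ : ∀ i, ∃ θ : T ≃* T, ∀ x, θ (p i x) = p (c i) x := fun i =>
    iff_of_imp (p i) (p (c i)) (hp _) (hp _) ((hc _ _).mp (hcc i)).ge
  choose θ hθ using hθ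
  have hθ' : ∀ i, ∀ x ∈ D, θ i (x i) = x (c i) := fun i x hx => hθ i ⟨x, hx⟩
  refine ⟨c, θ, fun i j => ?_, fun x => ⟨fun hx i j h => by rw [hθ' i x hx, hθ' j x hx, h], ?_⟩⟩
  · rw [hc]
    exact ⟨fun h x hx => by
      have : (⟨x, hx⟩ : D) ∈ (p i).ker ↔ (⟨x, hx⟩ : D) ∈ (p j).ker := by rw [h]
      exact this, fun h => Subgroup.ext fun x => h x x.2⟩
  · intro hx
    have key : ∀ S : Finset ι, (∀ i ∈ S, c i = i) → ∃ y ∈ D, ∀ i ∈ S, y i = x i := by
      intro S
      induction S using Finset.induction_on with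
      | empty => exact fun _ => ⟨1, D.one_mem, by simp⟩
      | insert a S ha ih =>
        intro hS
        obtain ⟨y, hy, hyx⟩ := ih (fun i hi => hS i (Finset.mem_insert_of_mem hi))
        obtain ⟨z, hz1, hz2⟩ := map_iInf_ker hT (p a) (hp a) p hp S (fun i hi h => ha (by
          have := (hc _ _).mpr h
          rw [hS i (Finset.mem_insert_of_mem hi), hS a (Finset.mem_insert_self _ _)] at this
          exact this ▸ hi)) (x a * (y a)⁻¹)
        refine ⟨z * y, D.mul_mem z.2 hy, fun i hi => ?_⟩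
        rcases Finset.mem_insert.mp hi with rfl | hi
        · have : (z : ι → T) i = x i * (y i)⁻¹ := hz1
          simp [this]
        · have : (z : ι → T) i = 1 := hz2 i hi
          simp [this, hyx i hi]
    obtain ⟨y, hy, hyx⟩ := key (Finset.univ.filter fun i => c i = i) (fun i hi => by simpa using hi)
    suffices x = y by rw [this]; exact hy
    funext i
    apply (θ i).injective
    rw [hx i (c i) (hcc i).symm, ← hyx (c i) (by simp [hcc]), hθ' _ y hy, hθ' _ y hy, hcc]

/-- The abstract form of the O'Nan–Scott analysis. -/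
theorem analysis [Fintype ι] [DecidableEq ι] (hT : ¬ IsMulCommutative T)
    (A : Set ((ι → T) ≃* (ι → T))) (hA : ∀ φ ∈ A, φ.symm ∈ A) (D : Subgroup (ι → T)) (hD : D ≠ ⊤)
    (hinv : ∀ φ ∈ A, ∀ x ∈ D, φ x ∈ D)
    (hmax : ∀ X : Subgroup (ι → T), D ≤ X → (∀ φ ∈ A, ∀ x ∈ X, φ x ∈ X) → X = D ∨ X = ⊤)
    (hmin : ∀ X : Subgroup (ι → T), X.Normal → (∀ φ ∈ A, ∀ x ∈ X, φ x ∈ X) → X = ⊥ ∨ X = ⊤) :
    (∃ K : ι → Subgroup T, (∀ i, K i ≠ ⊤) ∧ ∀ x, x ∈ D ↔ ∀ i, x i ∈ K i) ∨
    ∃ (k : ℕ) (c : ι → ι) (θ : ι → T ≃* T), 2 ≤ k ∧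
      (∀ j, Nat.card {i // c i = j} = k ∨ Nat.card {i // c i = j} = 0) ∧
      ∀ x, x ∈ D ↔ ∀ i j, c i = c j → θ i (x i) = θ j (x j) := by
  classical
  choose τ θ₀ hτ using fun φ : (ι → T) ≃* (ι → T) => exists_perm hT φ
  have htrans : ∀ P : ι → Prop, (∀ φ ∈ A, ∀ j, P (τ φ j) → P j) → (∃ i, P i) → ∀ i, P i := by
    intro P hP ⟨i₀, hi₀⟩ i
    obtain ⟨t, ht⟩ := exists_ne (1 : T)
    let X : Subgroup (ι → T) := Subgroup.pi {i | ¬ P i} (fun _ => ⊥)
    have hX : X.Normal := ⟨fun x hx g j hj => by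
      have : x j = 1 := hx j hj
      simp [this]⟩
    rcases hmin X hX (fun φ hφ x hx j hj => by
      have : x (τ φ j) = 1 := hx _ (fun h => hj (hP φ hφ j h))
      rw [hτ, this, map_one]; exact Subgroup.one_mem _) with h | h
    · exfalso
      have : Pi.mulSingle i₀ t ∈ X := fun j hj => by
        have hne : j ≠ i₀ := fun e => hj (by rw [e]; exact hi₀)
        change (Pi.mulSingle i₀ t : ι → T) j ∈ (⊥ : Subgroup T)
        rw [Pi.mulSingle_eq_of_ne hne]; exact Subgroup.one_mem _
      rw [h, Subgroup.mem_bot] at this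
      exact ht (by simpa using congrFun this i₀)
    · by_contra hi
      have : (fun _ => t) ∈ X := by rw [h]; trivial
      exact ht (this i hi)
  by_cases hs : ∀ i t, ∃ x ∈ D, x i = t
  · right
    obtain ⟨c, θ, hc, hD'⟩ := scott hT D hs
    have hne : Nonempty ι := by
      by_contra h
      rw [not_nonempty_iff] at h
      exact hD (Subsingleton.elim _ _)
    obtain ⟨i₀⟩ := hne
    have hall := htrans (fun i => Nat.card {j // c j = c i} = Nat.card {j // c j = c i₀})
      (fun φ hφ j hj => by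
        rw [← hj]
        refine Nat.card_congr ((τ φ).subtypeEquiv fun i => ?_)
        rw [hc, hc]
        constructor
        · intro h x hx
          have := h _ (hinv φ hφ x hx)
          rwa [hτ, hτ, map_eq_one_iff _ (θ₀ φ _).injective, map_eq_one_iff _ (θ₀ φ _).injective]
            at this
        · intro h x hx
          have := h _ (hinv _ (hA φ hφ) x hx)
          have h1 := hτ φ (φ.symm x) i
          have h2 := hτ φ (φ.symm x) j
          rw [φ.apply_symm_apply] at h1 h2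
          rw [h1, h2, map_eq_one_iff _ (θ₀ φ _).injective, map_eq_one_iff _ (θ₀ φ _).injective]
          exact this) ⟨i₀, rfl⟩
    refine ⟨Nat.card {j // c j = c i₀}, c, θ, ?_, fun j => ?_, hD'⟩
    · by_contra hlt
      apply hD
      rw [eq_top_iff]
      intro x _
      rw [hD']
      intro i j hij
      have h1 : Nat.card {k // c k = c j} ≤ 1 := by rw [hall j]; omega
      have := Finite.card_le_one_iff_subsingleton.mp h1
      obtain rfl : i = j := congrArg Subtype.val (this.elim ⟨i, hij⟩ ⟨j, rfl⟩)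
      rfl
    · by_cases hj : ∃ i, c i = j
      · obtain ⟨i, rfl⟩ := hj
        exact Or.inl (hall i)
      · right
        have : IsEmpty {i // c i = j} := ⟨fun i => hj ⟨i.1, i.2⟩⟩
        exact Nat.card_of_isEmpty
  · left
    push Not at hs
    let K : ι → Subgroup T := fun i => D.map (Pi.evalMonoidHom (fun _ : ι => T) i)
    have hK : ∀ i, K i ≠ ⊤ := htrans (fun i => K i ≠ ⊤) (fun φ hφ j hj h => hj (by
      rw [eq_top_iff]
      intro t _
      have : θ₀ φ j t ∈ K j := by rw [h]; trivial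
      obtain ⟨x, hx, e⟩ := this
      refine ⟨φ.symm x, hinv _ (hA φ hφ) x hx, (θ₀ φ j).injective ?_⟩
      change θ₀ φ j (φ.symm x (τ φ j)) = _
      rw [← hτ, φ.apply_symm_apply]
      exact e)) (by
        obtain ⟨i, t, h⟩ := hs
        refine ⟨i, fun e => ?_⟩
        have : t ∈ K i := by rw [e]; trivial
        obtain ⟨x, hx, e⟩ := this
        exact h x hx e)
    refine ⟨K, hK, fun x => ?_⟩
    rcases hmax (Subgroup.pi Set.univ K) (fun x hx i _ => ⟨x, hx, rfl⟩) (fun φ hφ x hx j _ => by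
      obtain ⟨y, hy, e⟩ := hx (τ φ j) trivial
      refine ⟨φ y, hinv φ hφ y hy, ?_⟩
      change φ y j = φ x j
      rw [hτ, hτ]
      exact congrArg _ e) with h | h
    · rw [← h]; simp [Subgroup.mem_pi]
    · exfalso
      obtain ⟨i, -⟩ := hs
      apply hK i
      rw [eq_top_iff]
      intro t _
      have : (fun _ => t) ∈ Subgroup.pi Set.univ K := by rw [h]; trivial
      exact this i trivial

end Cfsg.Agent.H3.Scott
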