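import Cfsg.Agent.H3.TW1

/-! The Thompson-Wielandt theorem for two self-normalising-type subgroups. -/

set_option autoImplicit false

namespace Cfsg.Agent.H3.TW

open Cfsg.Agent.H5.Core
open scoped commutatorElement

variable {G : Type*} [Group G]

theorem mem_of_coprime [Finite G] {p : ℕ} {N : Subgroup G} {c n : G} (k : ℕ)
    (hc : c ^ p ^ k = 1) (hcN : ∀ x ∈ N, c * x * c⁻¹ ∈ N) (hn : n ∈ N)
    (ho : (orderOf (c * n)).Coprime p) : c * n ∈ N := by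
  have h1 : ∀ j : ℕ, (c * n) ^ j * (c ^ j)⁻¹ ∈ N := by
    intro j
    induction j with
    | zero => simp
    | succ j ih =>
      have : (c * n) ^ (j + 1) * (c ^ (j + 1))⁻¹ =
          (c * n * c⁻¹) * (c * ((c * n) ^ j * (c ^ j)⁻¹) * c⁻¹) := by
        rw [pow_succ' (c * n), pow_succ' c]; group
      rw [this]
      exact N.mul_mem (hcN n hn) (hcN _ ih)
  have h2 := h1 (p ^ k)
  rw [hc, inv_one, mul_one] at h2
  have h3 : (c * n) ∈ Subgroup.zpowers ((c * n) ^ p ^ k) := by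
    rw [mem_zpowers_pow_iff]
    exact (ho.pow_right k).symm
  exact (Subgroup.zpowers_le.mpr h2) h3

/-- the subgroup generated by the `p'`-elements -/
def Tp (p : ℕ) (A : Subgroup G) : Subgroup G :=
  Subgroup.closure {x | x ∈ A ∧ (orderOf x).Coprime p}

theorem Tp_le (p : ℕ) (A : Subgroup G) : Tp p A ≤ A :=
  (Subgroup.closure_le _).mpr fun _ hx => hx.1

theorem Tp_conj {p : ℕ} {A : Subgroup G} {u : G}
    (h : ∀ t ∈ A, (orderOf t).Coprime p → u * t * u⁻¹ ∈ A) : ∀ t ∈ Tp p A, u * t * u⁻¹ ∈ Tp p A := by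
  intro t ht
  induction ht using Subgroup.closure_induction with
  | mem x hx =>
    refine Subgroup.subset_closure ⟨h x hx.1 hx.2, ?_⟩
    have : orderOf (u * x * u⁻¹) = orderOf x := by
      simpa using orderOf_injective (MulAut.conj u).toMonoidHom (MulAut.conj u).injective x
    rw [this]; exact hx.2
  | one => simp
  | mul x y _ _ hx hy =>
    have : u * (x * y) * u⁻¹ = (u * x * u⁻¹) * (u * y * u⁻¹) := by group
    rw [this]; exact mul_mem hx hy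
  | inv x _ hx =>
    have : u * x⁻¹ * u⁻¹ = (u * x * u⁻¹)⁻¹ := by group
    rw [this]; exact inv_mem hx

theorem Tp_ne_bot [Finite G] {p : ℕ} [hp : Fact p.Prime] {A : Subgroup G} (h : ¬ IsPGroup p A) :
    Tp p A ≠ ⊥ := by
  intro e
  apply h
  rw [← isPi_singleton_iff, isPi_iff']
  intro x hx hpr
  by_contra hne
  have h1 : x ∈ Tp p A := Subgroup.subset_closure ⟨hx, (Nat.coprime_primes hpr hp.out).mpr hne⟩
  rw [e, Subgroup.mem_bot] at h1
  rw [h1, orderOf_one] at hpr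
  exact Nat.not_prime_one hpr

/-- The configuration of the Thompson-Wielandt theorem. -/
structure Pair (M₁ M₂ A₁ B₁ A₂ B₂ : Subgroup G) : Prop where
  n1 : ∀ X ≤ M₁, X ≠ ⊥ → Nm M₁ X → ∀ g, (∀ x ∈ X, g * x * g⁻¹ ∈ X) → g ∈ M₁
  n2 : ∀ X ≤ M₂, X ≠ ⊥ → Nm M₂ X → ∀ g, (∀ x ∈ X, g * x * g⁻¹ ∈ X) → g ∈ M₂
  ne : M₁ ≠ M₂
  card : ∀ p, Nat.card (Op p M₁) = Nat.card (Op p M₂)
  a1 : A₁ ≤ M₁
  a1' : A₁ ≤ M₂
  a1n : Nm M₁ A₁
  a1m : ∀ X, X ≤ M₁ → X ≤ M₂ → Nm M₁ X → X ≤ A₁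
  b1 : B₁ ≤ M₂
  b1' : B₁ ≤ M₁
  b1n : Nm M₂ B₁
  b1m : ∀ X, X ≤ M₂ → X ≤ M₁ → Nm M₂ X → X ≤ B₁
  a2 : A₂ ≤ A₁
  a2' : A₂ ≤ B₁
  a2n : Nm M₁ A₂
  a2ne : A₂ ≠ ⊥
  b2 : B₂ ≤ B₁
  b2' : B₂ ≤ A₁
  b2n : Nm M₂ B₂
  b2ne : B₂ ≠ ⊥

variable {M₁ M₂ A₁ B₁ A₂ B₂ : Subgroup G}

theorem Pair.symm (h : Pair M₁ M₂ A₁ B₁ A₂ B₂) : Pair M₂ M₁ B₁ A₁ B₂ A₂ :=
  ⟨h.n2, h.n1, h.ne.symm, fun p => (h.card p).symm, h.b1, h.b1', h.b1n, h.b1m, h.a1, h.a1', h.a1n,
    h.a1m, h.b2, h.b2', h.b2n, h.b2ne, h.a2, h.a2', h.a2n, h.a2ne⟩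

theorem Pair.eq_bot (h : Pair M₁ M₂ A₁ B₁ A₂ B₂) {X : Subgroup G} (h1 : X ≤ M₁) (h2 : X ≤ M₂)
    (n1 : Nm M₁ X) (n2 : Nm M₂ X) : X = ⊥ := by
  by_contra hX
  exact h.ne (le_antisymm (fun g hg => h.n2 X h2 hX n2 g (n1 g hg))
    (fun g hg => h.n1 X h1 hX n1 g (n2 g hg)))

theorem Pair.mem_of [Finite G] (h : Pair M₁ M₂ A₁ B₁ A₂ B₂) {p : ℕ} [Fact p.Prime]
    (hA : ¬ IsPGroup p A₂) {u : G}
    (hu : ∀ t ∈ A₂, u * t * u⁻¹ * t⁻¹ ∈ M₁ ∧ ∃ k, (u * t * u⁻¹ * t⁻¹) ^ p ^ k = 1) : u ∈ M₁ := by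
  refine h.n1 (Tp p A₂) ((Tp_le p A₂).trans (h.a2.trans h.a1)) (Tp_ne_bot hA)
    (fun m hm => Tp_conj fun t ht _ => h.a2n m hm t ht) u (Tp_conj fun t ht ho => ?_)
  obtain ⟨h1, k, h2⟩ := hu t ht
  have e : u * t * u⁻¹ = (u * t * u⁻¹ * t⁻¹) * t := by group
  rw [e]
  refine mem_of_coprime k h2 (h.a2n _ h1) ht ?_
  rw [← e]
  have : orderOf (u * t * u⁻¹) = orderOf t := by
    simpa using orderOf_injective (MulAut.conj u).toMonoidHom (MulAut.conj u).injective t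
  rwa [this]

theorem pow_of_mem {p : ℕ} {P : Subgroup G} (hP : IsPGroup p P) {x : G} (hx : x ∈ P) :
    ∃ k, x ^ p ^ k = 1 := by
  obtain ⟨k, hk⟩ := hP ⟨x, hx⟩
  exact ⟨k, congrArg Subtype.val hk⟩

theorem Pair.Op_eq_bot [Finite G] (h : Pair M₁ M₂ A₁ B₁ A₂ B₂) {p : ℕ} [Fact p.Prime]
    (hA : ¬ IsPGroup p A₂) : Op p M₁ = ⊥ ∧ Op p M₂ = ⊥ := by
  set P₁ := Op p M₁ with hP₁
  set P₂ := Op p M₂ with hP₂
  have s1 : P₂ ≤ M₁ := by
    intro u hu
    refine h.mem_of hA fun t ht => ⟨?_, pow_of_mem (isPGroup_Op p M₂) ?_⟩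
    · exact h.b1' (B₁.mul_mem (h.b1n u (Op_le p M₂ hu) t (h.a2' ht)) (B₁.inv_mem (h.a2' ht)))
    · have : u * t * u⁻¹ * t⁻¹ = u * (t * u⁻¹ * t⁻¹) := by group
      rw [this]
      exact P₂.mul_mem hu (nm_Op p M₂ t (h.b1 (h.a2' ht)) _ (P₂.inv_mem hu))
  have s2 : P₁ ⊓ M₂ ≤ B₁ := by
    intro u hu
    have key : ∀ m ∈ M₂, m * u * m⁻¹ ∈ M₁ := by
      intro m hm
      refine h.mem_of hA fun t ht => ?_
      have hs : m⁻¹ * t * m⁻¹⁻¹ ∈ B₁ := h.b1n _ (M₂.inv_mem hm) t (h.a2' ht)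
      set s := m⁻¹ * t * m⁻¹⁻¹ with hs'
      have e : m * u * m⁻¹ * t * (m * u * m⁻¹)⁻¹ * t⁻¹ = m * (u * s * u⁻¹ * s⁻¹) * m⁻¹ := by
        rw [hs']; group
      rw [e]
      refine ⟨h.b1' (h.b1n m hm _ (B₁.mul_mem (h.b1n u hu.2 s hs) (B₁.inv_mem hs))), ?_⟩
      have h1 : u * s * u⁻¹ * s⁻¹ ∈ P₁ := by
        have : u * s * u⁻¹ * s⁻¹ = u * (s * u⁻¹ * s⁻¹) := by group
        rw [this]
        exact P₁.mul_mem hu.1 (nm_Op p M₁ s (h.b1' hs) _ (P₁.inv_mem hu.1))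
      obtain ⟨k, hk⟩ := pow_of_mem (isPGroup_Op p M₁) h1
      exact ⟨k, by rw [conj_pow, hk]; simp⟩
    let X : Subgroup G :=
      { carrier := {x | x ∈ M₂ ∧ ∀ m ∈ M₂, m * x * m⁻¹ ∈ M₁}
        one_mem' := ⟨M₂.one_mem, fun m _ => by simp⟩
        mul_mem' := fun {a b} ha hb => ⟨M₂.mul_mem ha.1 hb.1, fun m hm => by
          have : m * (a * b) * m⁻¹ = (m * a * m⁻¹) * (m * b * m⁻¹) := by group
          rw [this]; exact M₁.mul_mem (ha.2 m hm) (hb.2 m hm)⟩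
        inv_mem' := fun {a} ha => ⟨M₂.inv_mem ha.1, fun m hm => by
          have : m * a⁻¹ * m⁻¹ = (m * a * m⁻¹)⁻¹ := by group
          rw [this]; exact M₁.inv_mem (ha.2 m hm)⟩ }
    refine h.b1m X (fun x hx => hx.1) (fun x hx => by simpa using hx.2 1 M₂.one_mem) ?_
      (show u ∈ X from ⟨hu.2, key⟩)
    intro m hm x hx
    refine ⟨Nm.self M₂ m hm x hx.1, fun m' hm' => ?_⟩
    have : m' * (m * x * m⁻¹) * m'⁻¹ = (m' * m) * x * (m' * m)⁻¹ := by group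
    rw [this]
    exact hx.2 _ (M₂.mul_mem hm' hm)
  have s3 : P₁ ⊓ M₂ ≤ P₂ := by
    refine SN.le_Op (SN.step (SN.of_nm h.b1 h.b1n) s2 ?_) ((isPGroup_Op p M₁).to_inf_left)
    exact ((nm_Op p M₁).mono h.b1').inf ((Nm.self M₂).mono h.b1)
  have s4 : P₂ = ⊥ ∨ P₁ ≤ P₂ := by
    by_contra hcon
    push Not at hcon
    obtain ⟨hne, hnle⟩ := hcon
    have hN : P₂ ≤ Subgroup.normalizer (P₁ : Set G) := ((nm_Op p M₁).mono s1).le_normalizer
    have hS : IsPGroup p ↥(P₂ ⊔ P₁) :=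
      (isPGroup_Op p M₂).to_sup_of_normal_right' (isPGroup_Op p M₁) hN
    have hnc : NormalizerCondition ↥(P₂ ⊔ P₁) := by
      have := hS.isNilpotent
      exact Group.normalizerCondition_of_isNilpotent
    have hlt : P₂.subgroupOf (P₂ ⊔ P₁) < ⊤ := by
      rw [lt_top_iff_ne_top]
      intro e
      apply hnle
      intro x hx
      have : (⟨x, Subgroup.mem_sup_right hx⟩ : ↥(P₂ ⊔ P₁)) ∈ P₂.subgroupOf (P₂ ⊔ P₁) :=
        e ▸ trivial
      exact this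
    obtain ⟨s, hs1, hs2⟩ := SetLike.exists_of_lt (hnc _ hlt)
    have hsM : (s : G) ∈ M₂ := by
      refine h.n2 P₂ (Op_le p M₂) hne (nm_Op p M₂) s fun x hx => ?_
      exact (Subgroup.mem_normalizer_iff.mp hs1 ⟨x, Subgroup.mem_sup_left hx⟩).mp hx
    have hs3 : (s : G) ∈ ((P₂ ⊔ P₁ : Subgroup G) : Set G) := s.2
    rw [Subgroup.coe_mul_of_left_le_normalizer_right _ _ hN] at hs3
    obtain ⟨v, hv, u, hu, e⟩ := hs3
    apply hs2
    show (s : G) ∈ P₂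
    have hu2 : u ∈ M₂ := by
      have : u = v⁻¹ * s := by rw [← e]; simp
      rw [this]
      exact M₂.mul_mem (M₂.inv_mem (Op_le p M₂ hv)) hsM
    rw [← e]
    exact P₂.mul_mem hv (s3 ⟨hu, hu2⟩)
  have hc := h.card p
  rcases s4 with e | e
  · refine ⟨?_, e⟩
    rw [← hP₁, ← hP₂, e, Subgroup.card_bot] at hc
    exact Subgroup.eq_bot_of_card_eq _ hc
  · have e' : P₁ = P₂ := Subgroup.eq_of_le_of_card_ge e hc.ge
    have : P₁ = ⊥ := h.eq_bot (Op_le p M₁) (e' ▸ Op_le p M₂) (nm_Op p M₁) (e' ▸ nm_Op p M₂)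
    exact ⟨this, e' ▸ this⟩

/-- the join of the components -/
def Ey (H : Subgroup G) : Subgroup G := sSup {K | SN K H ∧ QS K}

theorem Ey_le (H : Subgroup G) : Ey H ≤ H := sSup_le fun _ hK => hK.1.le

theorem nm_Ey (H : Subgroup G) : Nm H (Ey H) := by
  intro g hg x hx
  have : Ey H ≤ (Ey H).comap (MulAut.conj g).toMonoidHom := by
    refine sSup_le fun K hK => ?_
    rw [← Subgroup.map_le_iff_le_comap]
    refine le_sSup ⟨?_, hK.2.map _ (MulAut.conj g).injective⟩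
    have h1 := hK.1.map (MulAut.conj g).toMonoidHom
    refine h1.trans (SN.of_nm ?_ ?_)
    · rintro _ ⟨y, hy, rfl⟩
      exact Nm.self H g hg y hy
    · intro a ha b hb
      obtain ⟨y, hy, rfl⟩ := hb
      refine ⟨g⁻¹ * (a * (g * y * g⁻¹) * a⁻¹) * g⁻¹⁻¹, Nm.self H _ (H.inv_mem hg) _
        (Nm.self H a ha _ (Nm.self H g hg y hy)), ?_⟩
      simp [mul_assoc]
  exact this hx

theorem Pair.comp_le (h : Pair M₁ M₂ A₁ B₁ A₂ B₂) {K : Subgroup G} (hK : SN K M₂) (hq : QS K) :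
    K ≤ M₁ := by
  rcases comp_dich hK hq h.b1 (h.b1n.mono hK.le) with e | e
  · exact e.trans h.b1'
  · intro k hk
    refine h.n1 A₂ (h.a2.trans h.a1) h.a2ne h.a2n k fun x hx => ?_
    rw [e k hk x (h.a2' hx)]
    simpa using hx

theorem QS.le_of_coprime [Finite G] {p : ℕ} [Fact p.Prime] {K : Subgroup G} (hq : QS K)
    {C : Subgroup G} (h : ∀ x ∈ K, (orderOf x).Coprime p → x ∈ C) : K ≤ C := by
  have h1 : Tp p K ≤ C := (Subgroup.closure_le _).mpr fun x hx => h x hx.1 hx.2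
  rcases hq.dich (Tp p K) (Tp_le p K)
    (fun m hm => Tp_conj fun t ht _ => Nm.self K m hm t ht) with e | e
  · rwa [e] at h1
  · exfalso
    have h2 : Group.IsPerfect K := Subgroup.isPerfect_iff.mpr hq.perf
    have h3 : Nontrivial K := (Subgroup.nontrivial_iff_ne_bot K).mpr hq.ne
    apply Group.IsPerfect.not_isNilpotent (G := K)
    have h4 : IsPGroup p (K ⧸ Subgroup.center K) := by
      have : IsPGroup p (⊤ : Subgroup (K ⧸ Subgroup.center K)) := by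
        rw [← isPi_singleton_iff]
        intro q hq' hd
        by_contra hne
        have := Fact.mk hq'
        rw [Subgroup.card_top] at hd
        obtain ⟨y, hy⟩ := exists_prime_orderOf_dvd_card' q hd
        obtain ⟨x, rfl⟩ := QuotientGroup.mk_surjective y
        obtain ⟨k, m, hm, e2⟩ := Nat.exists_eq_pow_mul_and_not_dvd (orderOf_pos x).ne' p
          (Fact.out : p.Prime).ne_one
        have h5 : orderOf (x ^ p ^ k) = m := by
          rw [orderOf_pow' _ (pow_pos (Fact.out : p.Prime).pos k).ne', e2, Nat.gcd_mul_right_left,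
            Nat.mul_div_cancel_left _ (pow_pos (Fact.out : p.Prime).pos k)]
        have h6 : x ^ p ^ k ∈ Subgroup.center K := by
          rw [Subgroup.mem_center_iff]
          intro z
          refine Subtype.ext (e z z.2 _ (Subgroup.subset_closure ⟨(x ^ p ^ k).2, ?_⟩))
          rw [Subgroup.orderOf_coe, h5]
          exact ((Nat.Prime.coprime_iff_not_dvd Fact.out).mpr hm).symm
        have h7 : (x : K ⧸ Subgroup.center K) ^ p ^ k = 1 := by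
          rw [← QuotientGroup.mk_pow]; exact (QuotientGroup.eq_one_iff _).mpr h6
        have h8 := orderOf_dvd_of_pow_eq_one h7
        rw [hy] at h8
        exact hne ((Nat.prime_dvd_prime_iff_eq hq' Fact.out).mp (hq'.dvd_of_dvd_pow h8))
      exact this.of_equiv Subgroup.topEquiv
    have := h4.isNilpotent
    exact Subgroup.isNilpotent_of_ker_le_center (QuotientGroup.mk' (Subgroup.center K))
      (by rw [QuotientGroup.ker_mk'])

theorem Pair.comp_sn [Finite G] (h : Pair M₁ M₂ A₁ B₁ A₂ B₂) {p : ℕ} [Fact p.Prime]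
    (h0 : ∀ q : ℕ, q.Prime → q ≠ p → Op q M₁ = ⊥) (hB : Op p M₁ = ⊥ ∨ IsPGroup p B₂)
    {K : Subgroup G} (hK : SN K M₂) (hq : QS K) : SN K M₁ := by
  have hK1 : K ≤ M₁ := h.comp_le hK hq
  rcases comp_dich hK hq h.a1' (h.a1n.mono hK1) with e | e
  · exact (hK.restrict e h.a1').trans (SN.of_nm h.a1 h.a1n)
  exfalso
  have hE : Ey M₁ ≤ A₁ := h.a1m _ (Ey_le M₁)
    (sSup_le fun L hL => h.symm.comp_le hL.1 hL.2) (nm_Ey M₁)
  have hP : Cm K (Op p M₁) := by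
    rcases hB with e1 | e1
    · rw [e1]; intro a _ b hb; rw [Subgroup.mem_bot.mp hb]; simp
    · set P₁ := Op p M₁ with hP₁
      have hB2 : B₂ ≤ P₁ := SN.le_Op (SN.step (SN.of_nm h.a1 h.a1n) h.b2' (h.b2n.mono h.a1')) e1
      have hc : Cm K (P₁ ⊓ M₂) := by
        rcases comp_dich hK hq (inf_le_right : P₁ ⊓ M₂ ≤ M₂)
          (((nm_Op p M₁).mono hK1).inf ((Nm.self M₂).mono hK.le)) with e2 | e2
        · exact absurd (((isPGroup_Op p M₁).to_inf_left (K := M₂)).to_le e2) hq.not_pgroup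
        · exact e2
      have : K ≤ Subgroup.centralizer (P₁ : Set G) := by
        refine hq.le_of_coprime (p := p) fun x hx ho => ?_
        intro r hr
        refine (AxB (isPGroup_Op p M₁) ((isPGroup_Op p M₁).to_inf_left (K := M₂))
          (fun t ht => Nm.self P₁ t ht.1) ho (nm_Op p M₁ x (hK1 hx)) (hc x hx) ?_ r hr).symm
        intro r hr hr'
        refine hc x hx r ⟨hr, h.n2 B₂ (h.b2.trans h.b1) h.b2ne h.b2n r fun y hy => ?_⟩
        rw [← hr' y ⟨hB2 hy, h.b1 (h.b2 hy)⟩]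
        simpa using hy
      exact fun a ha b hb => (this ha b hb).symm
  let C := M₁ ⊓ Subgroup.centralizer ((Op p M₁ ⊔ Ey M₁ : Subgroup G) : Set G)
  have hCn : Nm M₁ C := by
    refine (Nm.self M₁).inf fun m hm c hc y hy => ?_
    have h1 : Op p M₁ ⊔ Ey M₁ ≤ (Op p M₁ ⊔ Ey M₁).comap (MulAut.conj m⁻¹).toMonoidHom :=
      sup_le (fun z hz => Subgroup.mem_sup_left (nm_Op p M₁ _ (M₁.inv_mem hm) z hz))
        (fun z hz => Subgroup.mem_sup_right (nm_Ey M₁ _ (M₁.inv_mem hm) z hz))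
    have h2 := hc _ (h1 hy)
    simp only [MulEquiv.toMonoidHom_eq_coe, MonoidHom.coe_coe, MulAut.conj_apply, inv_inv] at h2
    calc y * (m * c * m⁻¹) = m * (m⁻¹ * y * m * c) * m⁻¹ := by group
      _ = m * c * m⁻¹ * y := by rw [h2]; group
  have hC := self_centralizing h0 (SN.of_nm (inf_le_left : C ≤ M₁) hCn)
    (fun c hc y hy => (hc.2 y (Subgroup.mem_sup_left hy)).symm)
    (fun L hL hq' c hc y hy => (hc.2 y (Subgroup.mem_sup_right (le_sSup (s := {K | SN K M₁ ∧ QS K})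
      ⟨hL, hq'⟩ hy))).symm)
  have hKC : K ≤ C := by
    refine le_inf hK1 ?_
    rw [Subgroup.le_centralizer_iff]
    refine sup_le (fun y hy k hk => hP k hk y hy) (fun y hy k hk => e k hk y (hE hy))
  exact hq.not_pgroup ((isPGroup_Op p M₁).to_le (hKC.trans hC))

theorem Pair.no_comp [Finite G] (h : Pair M₁ M₂ A₁ B₁ A₂ B₂) {p : ℕ} [Fact p.Prime]
    (h0 : ∀ q : ℕ, q.Prime → q ≠ p → Op q M₁ = ⊥ ∧ Op q M₂ = ⊥)
    (hB : (Op p M₁ = ⊥ ∧ Op p M₂ = ⊥) ∨ (IsPGroup p A₂ ∧ IsPGroup p B₂))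
    {K : Subgroup G} (hK : SN K M₁) : ¬ QS K := by
  intro hq
  have e : Ey M₁ = Ey M₂ := by
    refine le_antisymm (sSup_le_sSup fun L hL => ⟨?_, hL.2⟩) (sSup_le_sSup fun L hL => ⟨?_, hL.2⟩)
    · exact h.symm.comp_sn (fun q a b => (h0 q a b).2) (hB.imp And.right And.left) hL.1 hL.2
    · exact h.comp_sn (fun q a b => (h0 q a b).1) (hB.imp And.left And.right) hL.1 hL.2
  have := h.eq_bot (Ey_le M₁) (e ▸ Ey_le M₂) (nm_Ey M₁) (e ▸ nm_Ey M₂)
  apply hq.ne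
  rw [eq_bot_iff, ← this]
  exact le_sSup (s := {K | SN K M₁ ∧ QS K}) ⟨hK, hq⟩

theorem Pair.main [Finite G] (h : Pair M₁ M₂ A₁ B₁ A₂ B₂) :
    ∃ p : ℕ, p.Prime ∧ IsPGroup p A₂ ∧ IsPGroup p B₂ ∧
      (∀ q : ℕ, q.Prime → q ≠ p → Op q M₁ = ⊥ ∧ Op q M₂ = ⊥) ∧
      (∀ K, SN K M₁ → ¬ QS K) ∧ (∀ K, SN K M₂ → ¬ QS K) := by
  by_cases hc : ∃ p : ℕ, p.Prime ∧ ¬ (Op p M₁ = ⊥ ∧ Op p M₂ = ⊥)
  · obtain ⟨p, hp, hne⟩ := hc
    have := Fact.mk hp
    have hA : IsPGroup p A₂ := by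
      by_contra hA; exact hne (h.Op_eq_bot hA)
    have hB : IsPGroup p B₂ := by
      by_contra hB; exact hne (h.symm.Op_eq_bot hB).symm
    have h0 : ∀ q : ℕ, q.Prime → q ≠ p → Op q M₁ = ⊥ ∧ Op q M₂ = ⊥ := by
      intro q hq hqp
      have := Fact.mk hq
      refine h.Op_eq_bot fun hA' => h.a2ne ?_
      have := IsPGroup.disjoint_of_ne q p hqp A₂ A₂ hA' hA
      exact disjoint_self.mp this
    exact ⟨p, hp, hA, hB, h0, fun K hK => h.no_comp h0 (Or.inr ⟨hA, hB⟩) hK,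
      fun K hK => h.symm.no_comp (fun q a b => (h0 q a b).symm) (Or.inr ⟨hB, hA⟩) hK⟩
  · exfalso
    push Not at hc
    have h1 := self_centralizing (p := 2) (fun q a _ => (hc q a).1) (SN.refl M₁)
      (by rw [(hc 2 Nat.prime_two).1]; intro a _ b hb; rw [Subgroup.mem_bot.mp hb]; simp)
      (fun K hK hq => absurd hq (h.no_comp (p := 2) (fun q a _ => hc q a)
        (Or.inl (hc 2 Nat.prime_two)) hK))
    rw [(hc 2 Nat.prime_two).1] at h1
    exact h.a2ne (le_bot_iff.mp ((h.a2.trans h.a1).trans h1))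

theorem gfit_eq [Finite G] {p : ℕ} [Fact p.Prime] {H M : Subgroup G} (hH : SN H M)
    (h0 : ∀ q : ℕ, q.Prime → q ≠ p → Op q M = ⊥) (hc : ∀ K, SN K M → ¬ QS K) :
    Cfsg.generalizedFittingSubgroup H = Cfsg.pCore p H := by
  have h1 : Cfsg.layer H = ⊥ := by
    rw [eq_bot_iff]
    refine sSup_le fun K hK => ?_
    exact absurd ((qs_of_isQuasisimple hK.2).map H.subtype H.subtype_injective)
      (hc _ ((sn_of_isSubnormal hK.1).trans hH))
  rw [Cfsg.generalizedFittingSubgroup, h1, bot_sup_eq]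
  refine le_antisymm (sSup_le fun N hN => le_sSup ⟨hN.1, ?_⟩) (sSup_le fun N hN => le_sSup ⟨hN.1, ?_⟩)
  · have h2 : Group.IsNilpotent (N.map H.subtype) := by
      have := hN.2
      exact Group.nilpotent_of_mulEquiv (N.equivMapOfInjective H.subtype H.subtype_injective)
    have h3 := pgroup_of_nilp h0 ((sn_of_isSubnormal hN.1.isSubnormal).trans hH) h2
    exact h3.of_equiv (N.equivMapOfInjective H.subtype H.subtype_injective).symm
  · exact hN.2.isNilpotent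

end Cfsg.Agent.H3.TW
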