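import Mathlib
import Cfsg.Agent.H3.PointStab

set_option autoImplicit false

namespace Cfsg.Agent.H3.Wreath

open RegularWreathProduct
open scoped commutatorElement

variable {D Q : Type*} [Group D] [Group Q]

/-- The base group of the regular wreath product. -/
def inb : (Q → D) →* D ≀ᵣ Q where
  toFun f := ⟨f, 1⟩
  map_one' := rfl
  map_mul' _ _ := by ext <;> simp

@[simp] theorem left_inb (f : Q → D) : (inb f : D ≀ᵣ Q).left = f := rfl
@[simp] theorem right_inb (f : Q → D) : (inb f : D ≀ᵣ Q).right = 1 := rfl

theorem ker_le_range : (rightHom : D ≀ᵣ Q →* Q).ker ≤ (inb : (Q → D) →* D ≀ᵣ Q).range := by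
  intro x hx
  refine ⟨x.left, ?_⟩
  have : x.right = 1 := hx
  ext <;> simp [this]

theorem isSolvable_pi {ι : Type*} [Group.IsSolvable D] : Group.IsSolvable (ι → D) := by
  obtain ⟨n, hn⟩ := (inferInstance : Group.IsSolvable D)
  refine ⟨⟨n, eq_bot_iff.mpr fun f hf => ?_⟩⟩
  rw [Subgroup.mem_bot]
  funext i
  have := map_derivedSeries_le_derivedSeries (Pi.evalMonoidHom (fun _ : ι => D) i) n
    (Subgroup.mem_map_of_mem _ hf)
  rw [hn, Subgroup.mem_bot] at this
  exact this

theorem isSolvable_comap [Group.IsSolvable D] (M : Subgroup Q) [Group.IsSolvable M] :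
    Group.IsSolvable (M.comap (rightHom : D ≀ᵣ Q →* Q)) := by
  have : Group.IsSolvable (Q → D) := isSolvable_pi
  let f : (Q → D) →* (M.comap (rightHom : D ≀ᵣ Q →* Q)) :=
    inb.codRestrict _ (fun x => by simp [Subgroup.mem_comap])
  let g : (M.comap (rightHom : D ≀ᵣ Q →* Q)) →* M :=
    (rightHom.comp (Subgroup.subtype _)).codRestrict _ (fun x => x.2)
  refine Group.isSolvable_of_ker_le_range f g ?_
  intro x hx
  have h1 : (x : D ≀ᵣ Q).right = 1 := congrArg Subtype.val hx
  refine ⟨(x : D ≀ᵣ Q).left, Subtype.ext ?_⟩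
  change inb _ = _
  ext <;> simp [h1]

theorem isSolvable_wreath [Group.IsSolvable D] [Group.IsSolvable Q] :
    Group.IsSolvable (D ≀ᵣ Q) := by
  have : Group.IsSolvable (Q → D) := isSolvable_pi
  exact Group.isSolvable_of_ker_le_range inb rightHom ker_le_range

theorem derivedSeries_ne_bot_of_injective {G H : Type*} [Group G] [Group H] (f : G →* H)
    (hf : Function.Injective f) {d : ℕ} (h : derivedSeries G d ≠ ⊥) : derivedSeries H d ≠ ⊥ := by
  intro h'
  apply h
  have := map_derivedSeries_le_derivedSeries f d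
  rw [h', le_bot_iff, Subgroup.map_eq_bot_iff_of_injective _ hf] at this
  exact this

theorem derivedSeries_ne_bot_of_surjective {G H : Type*} [Group G] [Group H] (f : G →* H)
    (hf : Function.Surjective f) {d : ℕ} (h : derivedSeries H d ≠ ⊥) : derivedSeries G d ≠ ⊥ := by
  intro h'
  apply h
  rw [← map_derivedSeries_eq hf, h', Subgroup.map_bot]

theorem derivedSeries_ne_bot (K : Subgroup (D ≀ᵣ Q)) (hK : ∀ s : D, ∃ f : Q → D, inb f ∈ K ∧ f 1 = s)
    {d : ℕ} (h : derivedSeries D d ≠ ⊥) : derivedSeries K d ≠ ⊥ := by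
  let L : Subgroup (Q → D) := K.comap inb
  let φ : L →* K := (inb.comp L.subtype).codRestrict K (fun x => x.2)
  have hφ : Function.Injective φ := by
    intro x y e
    have : inb (x : Q → D) = inb (y : Q → D) := congrArg Subtype.val e
    exact Subtype.ext (congrArg RegularWreathProduct.left this)
  refine derivedSeries_ne_bot_of_injective φ hφ ?_
  refine derivedSeries_ne_bot_of_surjective ((Pi.evalMonoidHom (fun _ : Q => D) 1).comp L.subtype) ?_ h
  intro s
  obtain ⟨f, hf, hs⟩ := hK s
  exact ⟨⟨f, hf⟩, hs⟩

theorem exists_commutator [DecidableEq Q] (s : D) (q : Q) (hq : q ≠ 1) :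
    ∃ f : Q → D, inb f = ⁅(inb (Pi.mulSingle 1 s) : D ≀ᵣ Q), inl q⁆ ∧ f 1 = s := by
  refine ⟨(⁅(inb (Pi.mulSingle 1 s) : D ≀ᵣ Q), inl q⁆).left, ?_, ?_⟩
  · ext <;> simp [commutatorElement_def]
  · simp [commutatorElement_def, hq]

theorem exists_solvable (d : ℕ) : ∃ (S : Type) (_ : Group S) (_ : Finite S),
    Group.IsSolvable S ∧ derivedSeries S d ≠ ⊥ := by
  classical
  induction d with
  | zero =>
    exact ⟨Multiplicative (ZMod 2), inferInstance, inferInstance, inferInstance, top_ne_bot⟩
  | succ d ih =>
    obtain ⟨S, _, _, hS, hd⟩ := ih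
    refine ⟨S ≀ᵣ Multiplicative (ZMod 2), inferInstance, inferInstance, isSolvable_wreath, ?_⟩
    have h1 := derivedSeries_ne_bot (commutator (S ≀ᵣ Multiplicative (ZMod 2))) (fun s => by
      obtain ⟨f, hf, hs⟩ := exists_commutator s (Multiplicative.ofAdd (1 : ZMod 2)) (by decide)
      exact ⟨f, hf ▸ Subgroup.commutator_mem_commutator (Subgroup.mem_top _) (Subgroup.mem_top _),
        hs⟩) hd
    intro h2
    apply h1
    have key : ∀ n, (derivedSeries (commutator (S ≀ᵣ Multiplicative (ZMod 2))) n).map
        (Subgroup.subtype _) ≤ derivedSeries (S ≀ᵣ Multiplicative (ZMod 2)) (n + 1) := by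
      intro n
      induction n with
      | zero => rw [derivedSeries_zero, ← MonoidHom.range_eq_map, Subgroup.range_subtype]; rfl
      | succ n ih =>
        rw [derivedSeries_succ, Subgroup.map_commutator, derivedSeries_succ]
        exact Subgroup.commutator_mono ih ih
    have := key d
    rw [h2, le_bot_iff, Subgroup.map_eq_bot_iff_of_injective _ (Subgroup.subtype_injective _)]
      at this
    exact this

theorem isSolvable_perm_four {α : Type*} [Finite α] (h : Nat.card α = 4) :
    Group.IsSolvable (Equiv.Perm α) := by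
  classical
  have := Fintype.ofFinite α
  have hK := alternatingGroup.kleinFour_isKleinFour h
  have h1 : Group.IsSolvable (alternatingGroup.kleinFour α) :=
    Group.isSolvable_of_comm (fun a b => by
      exact (IsKleinFour.isMulCommutative (G := alternatingGroup.kleinFour α)).is_comm.comm a b)
  have h2 : Group.IsSolvable (alternatingGroup α) := by
    refine Group.isSolvable_of_ker_le_range (alternatingGroup.kleinFour α).subtype
      (Abelianization.of) ?_
    rw [Subgroup.range_subtype, alternatingGroup.kleinFour_eq_commutator h]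
    exact (Abelianization.ker_of _).le
  refine Group.isSolvable_of_ker_le_range (alternatingGroup α).subtype Equiv.Perm.sign ?_
  rw [Subgroup.range_subtype]
  exact le_rfl

theorem commutator_normalClosure {G : Type*} [Group G] (P : Subgroup G) (hP : ⁅P, P⁆ = P) :
    commutator (Subgroup.normalClosure (P : Set G)) = ⊤ := by
  apply Subgroup.map_injective (Subgroup.subtype_injective _)
  rw [Subgroup.map_subtype_commutator, ← MonoidHom.range_eq_map, Subgroup.range_subtype]
  refine le_antisymm (Subgroup.commutator_le_self _) ?_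
  apply Subgroup.normalClosure_le_normal
  intro x hx
  rw [← hP] at hx
  exact Subgroup.commutator_mono Subgroup.le_normalClosure Subgroup.le_normalClosure hx

end Cfsg.Agent.H3.Wreath
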